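import Mathlib

/-!
A four-group `{1, q₁, q₂, q₃}` rotated by an element `b` of order three, acting on a space over
the field with three elements on which `b - 1` has rank at most two.
-/

set_option autoImplicit false

namespace Cfsg.Agent.NS.Cub

open Subgroup
open scoped commutatorElement

variable {S : Type*} [Group S] {E : Type*} [AddCommGroup E] [Module (ZMod 3) E]

/-- Three involutions of a four-group permuted cyclically by `b`. -/
structure Rot (b q1 q2 q3 : S) : Prop where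
  b3 : b * b * b = 1
  c1 : b * q1 = q2 * b
  c2 : b * q2 = q3 * b
  c3 : b * q3 = q1 * b
  s1 : q1 * q1 = 1
  m12 : q1 * q2 = q3
  ne1 : q1 ≠ 1

namespace Rot

variable {b q1 q2 q3 : S} (h : Rot b q1 q2 q3)
include h

theorem e2 : q2 = b * q1 * b⁻¹ := by rw [h.c1]; group
theorem e3 : q3 = b * q2 * b⁻¹ := by rw [h.c2]; group
theorem e1 : q1 = b * q3 * b⁻¹ := by rw [h.c3]; group

theorem s2 : q2 * q2 = 1 := by
  rw [h.e2, show b * q1 * b⁻¹ * (b * q1 * b⁻¹) = b * (q1 * q1) * b⁻¹ by group, h.s1]; group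

theorem m23 : q2 * q3 = q1 := by
  rw [h.e1, ← h.m12]
  conv_lhs => rw [h.m12, h.e3, h.e2]
  rw [h.e2]; group

theorem rot : Rot b q2 q3 q1 :=
  ⟨h.b3, h.c2, h.c3, h.c1, h.s2, h.m23, fun e => h.ne1 (by
    have := h.e2; rw [e] at this
    calc q1 = b⁻¹ * (b * q1 * b⁻¹) * b := by group
      _ = 1 := by rw [← this]; group)⟩

theorem s3 : q3 * q3 = 1 := h.rot.s2
theorem m31 : q3 * q1 = q2 := h.rot.m23

theorem m21 : q2 * q1 = q3 := by
  rw [← h.m23, ← mul_assoc, h.s2, one_mul]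

theorem m32 : q3 * q2 = q1 := h.rot.m21
theorem m13 : q1 * q3 = q2 := h.rot.rot.m21

theorem comm12 : Commute q1 q2 := by rw [Commute, SemiconjBy, h.m12, h.m21]

theorem inv1 : q1⁻¹ = q1 := inv_eq_of_mul_eq_one_right h.s1

theorem comm_b : ⁅b, q1⁆ = q3 := by
  rw [commutatorElement_def, ← h.e2, h.inv1, h.m21]

theorem ne12 : q1 ≠ q2 := fun e => h.rot.rot.ne1 (by rw [← h.m12, ← e, h.s1])

end Rot

theorem rot_of {b q : S} (hb : b * b * b = 1) (hq : q * q = 1) (h1 : q ≠ 1)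
    (h : q * (b * q * b⁻¹) * (b * (b * q * b⁻¹) * b⁻¹) = 1) :
    Rot b q (b * q * b⁻¹) (b * (b * q * b⁻¹) * b⁻¹) := by
  refine ⟨hb, by group, by group, ?_, hq, ?_, h1⟩
  · have : b⁻¹ * b⁻¹ = b := by
      calc b⁻¹ * b⁻¹ = b⁻¹ * b⁻¹ * (b * b * b) := by rw [hb, mul_one]
        _ = b := by group
    calc b * (b * (b * q * b⁻¹) * b⁻¹) = (b * b * b) * q * (b⁻¹ * b⁻¹) := by group
      _ = q * b := by rw [hb, this, one_mul]
  · have h3 : (b * (b * q * b⁻¹) * b⁻¹) * (b * (b * q * b⁻¹) * b⁻¹) = 1 := by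
      rw [show (b * (b * q * b⁻¹) * b⁻¹) * (b * (b * q * b⁻¹) * b⁻¹) =
        b * b * (q * q) * b⁻¹ * b⁻¹ by group, hq]; group
    exact (eq_inv_of_mul_eq_one_left h).trans (inv_eq_of_mul_eq_one_right h3)

/-- An abelian `b`-invariant subgroup of exponent a power of two not centralized by `b`
contains a rotated triple. -/
theorem exists_rot {b : S} (hb : b * b * b = 1) {A : Subgroup S}
    (hA : ∀ x ∈ A, ∀ y ∈ A, x * y = y * x) (hAb : ∀ x ∈ A, b * x * b⁻¹ ∈ A)
    (h2 : ∀ x ∈ A, ∃ k, x ^ 2 ^ k = 1) {y : S} (hy : y ∈ A) (hyb : b * y * b⁻¹ ≠ y) :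
    ∃ q1 q2 q3, q1 ∈ A ∧ q2 ∈ A ∧ q3 ∈ A ∧ Rot b q1 q2 q3 := by
  classical
  set w := y⁻¹ * (b * y * b⁻¹) with hw
  have hwA : w ∈ A := mul_mem (inv_mem hy) (hAb y hy)
  have hw1 : w ≠ 1 := fun e => hyb (by rw [hw, inv_mul_eq_one] at e; exact e.symm)
  have hb' : b * (b * (b * y * b⁻¹) * b⁻¹) * b⁻¹ = y := by
    calc _ = (b * b * b) * y * (b * b * b)⁻¹ := by group
      _ = y := by rw [hb]; group
  have hy1 := hAb y hy
  have hy2 := hAb _ hy1
  have hprod : w * (b * w * b⁻¹) * (b * (b * w * b⁻¹) * b⁻¹) = 1 := by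
    calc _ = y⁻¹ * (b * (b * (b * y * b⁻¹) * b⁻¹) * b⁻¹) := by rw [hw]; group
      _ = 1 := by rw [hb']; group
  have hex := h2 w hwA
  set k := Nat.find hex with hk
  have hk0 : k ≠ 0 := fun e => hw1 (by simpa [← hk, e] using Nat.find_spec hex)
  obtain ⟨j, hj⟩ := Nat.exists_eq_succ_of_ne_zero hk0
  have hq1 : w ^ 2 ^ j ≠ 1 := Nat.find_min hex (by omega)
  have hq2 : w ^ 2 ^ j * w ^ 2 ^ j = 1 := by
    have := Nat.find_spec hex
    rw [← hk, hj, Nat.succ_eq_add_one, pow_succ, mul_two, pow_add] at this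
    exact this
  have hqA := pow_mem hwA (2 ^ j)
  refine ⟨_, _, _, hqA, hAb _ hqA, hAb _ (hAb _ hqA), rot_of hb hq2 hq1 ?_⟩
  have hw1' := hAb w hwA
  have hw2' := hAb _ hw1'
  have c1 : Commute w (b * w * b⁻¹) := hA _ hwA _ hw1'
  have c2 : Commute (w * (b * w * b⁻¹)) (b * (b * w * b⁻¹) * b⁻¹) :=
    hA _ (mul_mem hwA hw1') _ hw2'
  rw [← conj_pow, ← conj_pow, ← c1.mul_pow, ← c2.mul_pow, hprod, one_pow]

theorem three (v : E) : v + v + v = 0 := by
  have : ((3 : ℕ) : ZMod 3) • v = 0 := by rw [ZMod.natCast_self, zero_smul]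
  rw [Nat.cast_smul_eq_nsmul] at this
  rw [← this]; abel

theorem eq_zero_of_eq_neg {v : E} (h : v = -v) : v = 0 := by
  linear_combination (norm := abel) three v - h - h - h - h + three v + three v

variable {ρ : Representation (ZMod 3) S E}

theorem app_app (g h : S) (v : E) : ρ g (ρ h v) = ρ (g * h) v := by rw [map_mul]; rfl

theorem app_one (v : E) : ρ 1 v = v := by rw [map_one]; rfl

theorem app_inv (g : S) (v : E) : ρ g (ρ g⁻¹ v) = v := by rw [app_app, mul_inv_cancel, app_one]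

theorem inv_app (g : S) (v : E) : ρ g⁻¹ (ρ g v) = v := by rw [app_app, inv_mul_cancel, app_one]

theorem app_ne_zero (g : S) {v : E} (h : v ≠ 0) : ρ g v ≠ 0 := fun e =>
  h (by rw [← inv_app (ρ := ρ) g v, e, map_zero])

theorem app_comm {g h : S} (c : g * h = h * g) (v : E) : ρ g (ρ h v) = ρ h (ρ g v) := by
  rw [app_app, app_app, c]

theorem app_semi {g h k l : S} (c : g * h = k * l) (v : E) : ρ g (ρ h v) = ρ k (ρ l v) := by
  rw [app_app, app_app, c]

theorem zmod_cases (a : ZMod 3) : a = 0 ∨ a = 1 ∨ a = -1 := by revert a; decide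

/-- The three weight lines. -/
structure Trip (ρ : Representation (ZMod 3) S E) (b q1 q2 q3 : S) (u1 u2 u3 : E) : Prop where
  g : Rot b q1 q2 q3
  u0 : u1 ≠ 0
  bu1 : ρ b u1 = u2
  bu2 : ρ b u2 = u3
  q11 : ρ q1 u1 = u1
  q21 : ρ q2 u1 = -u1
  span : ∀ v, ∃ α β : ZMod 3, ρ b v - v = α • (u2 - u1) + β • (u3 - u2)

namespace Trip

variable {b q1 q2 q3 : S} {u1 u2 u3 : E} (h : Trip ρ b q1 q2 q3 u1 u2 u3)
include h

theorem bu3 : ρ b u3 = u1 := by
  rw [← h.bu2, ← h.bu1, app_app, app_app, h.g.b3, app_one]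

theorem q31 : ρ q3 u1 = -u1 := by rw [← h.g.m12, ← app_app, h.q21, map_neg, h.q11]

theorem rot : Trip ρ b q2 q3 q1 u2 u3 u1 := by
  refine ⟨h.g.rot, h.bu1 ▸ app_ne_zero b h.u0, h.bu2, h.bu3, ?_, ?_, fun v => ?_⟩
  · rw [← h.bu1, app_semi h.g.c1.symm, h.q11]
  · rw [← h.bu1, app_semi h.g.c2.symm, h.q21, map_neg]
  · obtain ⟨α, β, e⟩ := h.span v
    exact ⟨β - α, -α, by rw [e]; module⟩

theorem q22 : ρ q2 u2 = u2 := h.rot.q11
theorem q32 : ρ q3 u2 = -u2 := h.rot.q21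
theorem q12 : ρ q1 u2 = -u2 := h.rot.q31
theorem q33 : ρ q3 u3 = u3 := h.rot.rot.q11
theorem q13 : ρ q1 u3 = -u3 := h.rot.rot.q21
theorem q23 : ρ q2 u3 = -u3 := h.rot.rot.q31

theorem line {v : E} (h1 : ρ q1 v = v) (h2 : ρ q2 v = -v) : ∃ α : ZMod 3, v = α • u1 := by
  obtain ⟨α, β, e⟩ := h.span v
  have h3 : ρ q3 v = -v := by rw [← h.g.m12, ← app_app, h2, map_neg, h1]
  have hw : ρ q1 (ρ b v) = -ρ b v := by rw [app_semi h.g.c3.symm, h3, map_neg]
  have e' := congrArg (ρ q1) e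
  simp only [map_sub, map_add, map_smul, hw, h1, h.q11, h.q12, h.q13] at e'
  refine ⟨α, ?_⟩
  linear_combination (norm := module) e + e' + three v - three (α • u1)

theorem fixC {c : E} (h1 : ρ q1 c = c) (h2 : ρ q2 c = c) : ρ b c = c := by
  obtain ⟨α, β, e⟩ := h.span c
  have h3 : ρ q3 c = c := by rw [← h.g.m12, ← app_app, h2, h1]
  have w1 : ρ q1 (ρ b c) = ρ b c := by rw [app_semi h.g.c3.symm, h3]
  have w2 : ρ q2 (ρ b c) = ρ b c := by rw [app_semi h.g.c1.symm, h1]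
  have w3 : ρ q3 (ρ b c) = ρ b c := by rw [app_semi h.g.c2.symm, h2]
  have e1 := congrArg (ρ q1) e
  have e2 := congrArg (ρ q2) e
  have e3 := congrArg (ρ q3) e
  simp only [map_sub, map_add, map_smul, w1, h1, h.q11, h.q12, h.q13] at e1
  simp only [map_sub, map_add, map_smul, w2, h2, h.q21, h.q22, h.q23] at e2
  simp only [map_sub, map_add, map_smul, w3, h3, h.q31, h.q32, h.q33] at e3
  linear_combination (norm := module) e + e1 + e2 + e3 - three (ρ b c - c)

theorem part (v : E) : ∃ α : ZMod 3, v + ρ q1 v - ρ q2 v - ρ q3 v = α • u1 := by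
  refine h.line ?_ ?_
  · simp only [map_sub, map_add, app_app, h.g.s1, h.g.m12, h.g.m13, app_one]; abel
  · simp only [map_sub, map_add, app_app, h.g.s2, h.g.m21, h.g.m23, app_one]; abel

theorem decomp (v : E) : ∃ (c : E) (α β γ : ZMod 3), ρ q1 c = c ∧ ρ q2 c = c ∧
    c = v + ρ q1 v + ρ q2 v + ρ q3 v ∧ v = c + α • u1 + β • u2 + γ • u3 := by
  obtain ⟨α, e1⟩ := h.part v
  obtain ⟨β, e2⟩ := h.rot.part v
  obtain ⟨γ, e3⟩ := h.rot.rot.part v
  refine ⟨_, α, β, γ, ?_, ?_, rfl, ?_⟩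
  · simp only [map_add, app_app, h.g.s1, h.g.m12, h.g.m13, app_one]; abel
  · simp only [map_add, app_app, h.g.s2, h.g.m21, h.g.m23, app_one]; abel
  · rw [← e1, ← e2, ← e3]
    linear_combination (norm := abel) - three v

theorem sign {g : S} (c1 : g * q1 = q1 * g) (c2 : g * q2 = q2 * g) :
    ρ g u1 = u1 ∨ ρ g u1 = -u1 := by
  obtain ⟨α, e⟩ := h.line (v := ρ g u1) (by rw [← app_comm c1, h.q11])
    (by rw [← app_comm c2, h.q21, map_neg])
  rcases zmod_cases α with rfl | rfl | rfl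
  · exact absurd (by rw [e, zero_smul]) (app_ne_zero (ρ := ρ) g h.u0)
  · exact Or.inl (by rw [e, one_smul])
  · exact Or.inr (by rw [e, neg_one_smul])

theorem ext (hρ : Function.Injective ρ) {g : S} (h1 : ρ g u1 = u1) (h2 : ρ g u2 = u2)
    (h3 : ρ g u3 = u3) (hc : ∀ c, ρ q1 c = c → ρ q2 c = c → ρ g c = c) : g = 1 := by
  refine hρ (LinearMap.ext fun v => ?_)
  obtain ⟨c, α, β, γ, c1, c2, -, e⟩ := h.decomp v
  rw [app_one, e]
  simp only [map_add, map_smul, h1, h2, h3, hc c c1 c2]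

/-- An invariant subspace on which the four-group acts non-trivially contains the lines. -/
theorem mem_of_ne {N : Submodule (ZMod 3) E} (n1 : ∀ v ∈ N, ρ q1 v ∈ N)
    (n2 : ∀ v ∈ N, ρ q2 v ∈ N) (nb : ∀ v ∈ N, ρ b v ∈ N) :
    (∀ v ∈ N, ρ q1 v = v ∧ ρ q2 v = v) ∨ (u1 ∈ N ∧ u2 ∈ N ∧ u3 ∈ N) := by
  have n3 : ∀ v ∈ N, ρ q3 v ∈ N := fun v hv => by
    rw [← h.g.m12, ← app_app]; exact n1 _ (n2 _ hv)
  by_cases hu : u1 ∈ N
  · exact Or.inr ⟨hu, h.bu1 ▸ nb _ hu, h.bu2 ▸ h.bu1 ▸ nb _ (nb _ hu)⟩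
  have hu3 : u3 ∉ N := fun e => hu (h.bu3 ▸ nb _ e)
  have hu2 : u2 ∉ N := fun e => hu3 (h.bu2 ▸ nb _ e)
  have key : ∀ {u w : E} {α : ZMod 3}, u ∉ N → w ∈ N → w = α • u → w = 0 := by
    intro u w α hu hw e
    by_cases h0 : α = 0
    · rw [e, h0, zero_smul]
    · exact absurd ((N.smul_mem_iff h0).1 (e ▸ hw)) hu
  refine Or.inl fun v hv => ?_
  obtain ⟨α, e1⟩ := h.part v
  obtain ⟨β, e2⟩ := h.rot.part v
  obtain ⟨γ, e3⟩ := h.rot.rot.part v
  have a1 := n1 v hv
  have a2 := n2 v hv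
  have a3 := n3 v hv
  have z1 := key hu (sub_mem (sub_mem (add_mem hv a1) a2) a3) e1
  have z2 := key hu2 (sub_mem (sub_mem (add_mem hv a2) a3) a1) e2
  have z3 := key hu3 (sub_mem (sub_mem (add_mem hv a3) a1) a2) e3
  constructor
  · linear_combination (norm := abel) z2 + z3 - three v + three (ρ q1 v)
  · linear_combination (norm := abel) z1 + z3 - three v + three (ρ q2 v)

end Trip

theorem exists_trip [Module.Finite (ZMod 3) E] (hρ : Function.Injective ρ) {b q1 q2 q3 : S}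
    (h : Rot b q1 q2 q3) (hr : Module.finrank (ZMod 3) (LinearMap.range (ρ b - 1)) ≤ 2) :
    ∃ u1 u2 u3, Trip ρ b q1 q2 q3 u1 u2 u3 := by
  have step : ∀ {q1 q2 q3 : S}, Rot b q1 q2 q3 → (∀ v, ρ q1 v = v → ρ q2 v = -v → v = 0) →
      ∀ v, ρ q3 v = v → ρ q1 v = -v → v = 0 := by
    intro q1 q2 q3 h H v h3 h1
    have := H (ρ b v) (by rw [app_semi h.c3.symm, h3]) (by rw [app_semi h.c1.symm, h1, map_neg])
    by_contra h0
    exact app_ne_zero b h0 this
  obtain ⟨u, hu1, hu2, hu0⟩ : ∃ u, ρ q1 u = u ∧ ρ q2 u = -u ∧ u ≠ 0 := by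
    by_contra H
    push Not at H
    have H3 := step h H
    have H2 := step h.rot.rot H3
    refine h.ne1 (hρ (LinearMap.ext fun v => ?_))
    have z2 := H2 (v + ρ q2 v - ρ q3 v - ρ q1 v)
      (by simp only [map_sub, map_add, app_app, h.s2, h.m21, h.m23, app_one]; abel)
      (by simp only [map_sub, map_add, app_app, h.s3, h.m31, h.m32, app_one]; abel)
    have z3 := H3 (v + ρ q3 v - ρ q1 v - ρ q2 v)
      (by simp only [map_sub, map_add, app_app, h.s3, h.m31, h.m32, app_one]; abel)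
      (by simp only [map_sub, map_add, app_app, h.s1, h.m12, h.m13, app_one]; abel)
    rw [app_one]
    linear_combination (norm := abel) z2 + z3 - three v + three (ρ q1 v)
  refine ⟨u, ρ b u, ρ b (ρ b u), h, hu0, rfl, rfl, hu1, hu2, fun v => ?_⟩
  have hu3 : ρ q3 u = -u := by rw [← h.m12, ← app_app, hu2, map_neg, hu1]
  have a1 : ρ q1 (ρ b u) = -ρ b u := by rw [app_semi h.c3.symm, hu3, map_neg]
  have a3 : ρ q3 (ρ b u) = -ρ b u := by rw [app_semi h.c2.symm, hu2, map_neg]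
  have a2 : ρ q2 (ρ b u) = ρ b u := by rw [app_semi h.c1.symm, hu1]
  have b1 : ρ q1 (ρ b (ρ b u)) = -ρ b (ρ b u) := by rw [app_semi h.c3.symm, a3, map_neg]
  have b3 : ρ q3 (ρ b (ρ b u)) = ρ b (ρ b u) := by rw [app_semi h.c2.symm, a2]
  have hli : LinearIndependent (ZMod 3) ![ρ b u - u, ρ b (ρ b u) - ρ b u] := by
    rw [LinearIndependent.pair_iff]
    intro s t e
    have e1 := congrArg (ρ q1) e
    have e3 := congrArg (ρ q3) e
    simp only [map_sub, map_add, map_smul, map_zero, hu1, a1, b1] at e1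
    simp only [map_sub, map_add, map_smul, map_zero, hu3, a3, b3] at e3
    have s0 : s • u = 0 := by linear_combination (norm := module) e + e1 + three (s • u)
    have t0 : t • ρ b (ρ b u) = 0 := by
      linear_combination (norm := module) three (t • ρ b (ρ b u)) - e - e3
    exact ⟨(smul_eq_zero.1 s0).resolve_right hu0,
      (smul_eq_zero.1 t0).resolve_right (app_ne_zero b (app_ne_zero b hu0))⟩
  have hle : Submodule.span (ZMod 3) (Set.range ![ρ b u - u, ρ b (ρ b u) - ρ b u]) ≤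
      LinearMap.range (ρ b - 1) := by
    rw [Submodule.span_le]
    rintro _ ⟨i, rfl⟩
    fin_cases i
    · exact ⟨u, rfl⟩
    · exact ⟨ρ b u, rfl⟩
  have heq := Submodule.eq_of_le_of_finrank_le hle (by
    rw [finrank_span_eq_card hli]; simpa using hr)
  have hv : ρ b v - v ∈ Submodule.span (ZMod 3) (Set.range ![ρ b u - u, ρ b (ρ b u) - ρ b u]) :=
    heq ▸ ⟨v, rfl⟩
  rw [Matrix.range_cons_cons_empty, Submodule.mem_span_pair] at hv
  obtain ⟨α, β, e⟩ := hv
  exact ⟨α, β, e.symm⟩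

/-- Pointwise stabilizer of a set of vectors. -/
def fixSub (ρ : Representation (ZMod 3) S E) (N : Set E) : Subgroup S where
  carrier := {g | ∀ v ∈ N, ρ g v = v}
  one_mem' := fun v _ => app_one v
  mul_mem' := fun ha hb v hv => by rw [← app_app, hb v hv, ha v hv]
  inv_mem' := fun {a} ha v hv => by
    conv_lhs => rw [← ha v hv]
    exact inv_app a v

/-- Elements acting trivially on the quotient by `M`. -/
def comSub (ρ : Representation (ZMod 3) S E) (M : Submodule (ZMod 3) E) : Subgroup S where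
  carrier := {g | ∀ v, ρ g v - v ∈ M}
  one_mem' := fun v => by rw [app_one, sub_self]; exact M.zero_mem
  mul_mem' := fun {a b} ha hb v => by
    rw [← app_app, show ρ a (ρ b v) - v = (ρ a (ρ b v) - ρ b v) + (ρ b v - v) by abel]
    exact add_mem (ha _) (hb _)
  inv_mem' := fun {a} ha v => by
    have := ha (ρ a⁻¹ v)
    rw [app_inv] at this
    simpa using neg_mem this

theorem comSub_inv {M : Submodule (ZMod 3) E} {g : S} (hg : g ∈ comSub ρ M) {v : E}
    (hv : v ∈ M) : ρ g v ∈ M := by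
  simpa using add_mem (hg v) hv

theorem commutator_le_fixSub {R : Subgroup S} {b : S} {N : Set E}
    (hR : ∀ r ∈ R, ∀ v ∈ N, ρ r v ∈ N) (hb : ∀ v ∈ N, ρ b v = v) :
    ⁅R, zpowers b⁆ ≤ fixSub ρ N := by
  refine commutator_le.2 fun r hr c hc => ?_
  have hc' : c ∈ fixSub ρ N := (zpowers_le.2 (show b ∈ fixSub ρ N from hb)) hc
  rw [commutatorElement_def]
  refine mul_mem (fun v hv => ?_) (inv_mem hc')
  rw [← app_app, ← app_app, hc' _ (hR _ (inv_mem hr) v hv), app_inv]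

theorem conj_mem_comSub {M : Submodule (ZMod 3) E} {r c : S} (hr : ∀ v ∈ M, ρ r v ∈ M)
    (hc : c ∈ comSub ρ M) : r * c * r⁻¹ ∈ comSub ρ M := fun v => by
  have := hr _ (hc (ρ r⁻¹ v))
  rwa [map_sub, app_inv, app_app, app_app] at this

theorem commutator_le_comSub {R : Subgroup S} {b : S} {M : Submodule (ZMod 3) E}
    (hR : ∀ r ∈ R, ∀ v ∈ M, ρ r v ∈ M) (hb : ∀ v, ρ b v - v ∈ M) :
    ⁅R, zpowers b⁆ ≤ comSub ρ M := by
  refine commutator_le.2 fun r hr c hc => ?_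
  have hc' : c ∈ comSub ρ M := (zpowers_le.2 (show b ∈ comSub ρ M from hb)) hc
  rw [commutatorElement_def]
  exact mul_mem (conj_mem_comSub (hR r hr) hc') (inv_mem hc')

/-- No element of a commutator subgroup acts as a reflection. -/
theorem not_refl [Module.Finite (ZMod 3) E] {A B : Subgroup S} {t : S} (ht : t ∈ ⁅A, B⁆) {u : E}
    (hu : u ≠ 0) (htu : ρ t u = -u) (hl : ∀ v, ∃ α : ZMod 3, ρ t v - v = α • u) : False := by
  have hdet : ∀ g ∈ ⁅A, B⁆, LinearMap.det (ρ g) = 1 := by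
    have : ⁅A, B⁆ ≤ ((LinearMap.det.comp ρ).toHomUnits).ker := by
      refine commutator_le.2 fun a _ c _ => ?_
      rw [MonoidHom.mem_ker, map_commutatorElement, commutatorElement_eq_one_iff_mul_comm, mul_comm]
    intro g hg
    have := congrArg Units.val (MonoidHom.mem_ker.1 (this hg))
    simpa using this
  choose f hf using hl
  have inj : ∀ {α β : ZMod 3}, α • u = β • u → α = β := fun e => smul_left_injective _ hu e
  let φ : Module.Dual (ZMod 3) E :=
    { toFun := f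
      map_add' := fun x y => inj (by rw [add_smul, ← hf, ← hf, ← hf, map_add]; abel)
      map_smul' := fun c x => inj (by
        rw [RingHom.id_apply, smul_eq_mul, mul_smul, ← hf, ← hf, map_smul, smul_sub]) }
  have e : ρ t = LinearMap.transvection φ u := LinearMap.ext fun v => by
    change ρ t v = v + f v • u
    rw [← hf]; abel
  have h1 := hdet t ht
  rw [e, LinearMap.transvection.det] at h1
  have h2 : f u = 0 := show φ u = 0 by simpa using h1
  have h3 := hf u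
  rw [h2, zero_smul, htu] at h3
  exact hu (eq_zero_of_eq_neg (by linear_combination (norm := abel) - h3))

end Cfsg.Agent.NS.Cub
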