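import Mathlib
import Cfsg.Agent.NS.CubA
import Cfsg.Agent.GT.HallCoprime
import Cfsg.Agent.GT.CoprimeProd
import Cfsg.Agent.GT.CoprimeSylow

/-!
In the situation of `CubA`, `b` centralizes the invariant subgroups of odd order prime to three.
-/

set_option autoImplicit false

namespace Cfsg.Agent.NS.Cub

open Subgroup Module
open scoped commutatorElement

variable {S : Type*} [Group S] {E : Type*} [AddCommGroup E] [Module (ZMod 3) E]
  {ρ : Representation (ZMod 3) S E}

theorem card_units_end {V : Type*} [AddCommGroup V] [Module (ZMod 3) V]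
    [Module.Finite (ZMod 3) V] {n : ℕ} (hn : finrank (ZMod 3) V = n) :
    Nat.card (Module.End (ZMod 3) V)ˣ = ∏ i : Fin n, (3 ^ n - 3 ^ (i : ℕ)) := by
  classical
  have := Matrix.card_GL_field (𝔽 := ZMod 3) n
  rw [ZMod.card] at this
  rw [← this]
  let b := Module.finBasisOfFinrankEq (ZMod 3) V hn
  exact Nat.card_congr (Units.mapEquiv (LinearMap.toMatrixAlgEquiv b).toMulEquiv).toEquiv

theorem card_dvd_units (hρ : Function.Injective ρ) {K : Subgroup S}
    (hK : (Nat.card K).Coprime 3) {M : Submodule (ZMod 3) E} (hM : K ≤ comSub ρ M) :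
    Nat.card K ∣ Nat.card (Module.End (ZMod 3) M)ˣ := by
  let σ : Representation (ZMod 3) K M :=
    Representation.subrepresentation (ρ.comp K.subtype) M fun k v hv => comSub_inv (hM k.2) hv
  refine card_dvd_of_injective σ.toHomUnits ((injective_iff_map_eq_one _).2 fun k hk => ?_)
  have h1 : ∀ m ∈ M, ρ k m = m := fun m hm => by
    have : σ k ⟨m, hm⟩ = ⟨m, hm⟩ := by
      rw [show σ k = 1 from congrArg Units.val hk]; rfl
    exact congrArg Subtype.val this
  have h3 : (k : S) * k * k = 1 := hρ (LinearMap.ext fun v => by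
    have a := h1 _ (hM k.2 v)
    rw [map_sub] at a
    have a' := congrArg (ρ k) a
    rw [map_sub, map_sub] at a'
    rw [app_one, ← app_app, ← app_app]
    linear_combination (norm := abel) a' + a + a + three (ρ k v - v))
  have h3' : k ^ 3 = 1 := Subtype.ext (by simpa [pow_succ] using h3)
  exact orderOf_eq_one_iff.1 (Nat.eq_one_of_dvd_coprimes hK (orderOf_dvd_natCard k)
    (orderOf_dvd_of_pow_eq_one h3'))

variable [Module.Finite (ZMod 3) E]

theorem card_dvd_four (hρ : Function.Injective ρ) {K : Subgroup S}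
    (hK : (Nat.card K).Coprime 3) {M : Submodule (ZMod 3) E} (hM : K ≤ comSub ρ M)
    (h : finrank (ZMod 3) M ≤ 4) : Nat.card K ∣ 5 * 13 * (2 ^ 9 * 3 ^ 6) := by
  refine (card_dvd_units hρ hK hM).trans ?_
  rw [card_units_end rfl]
  generalize finrank (ZMod 3) M = n at h
  interval_cases n <;> simp [Fin.prod_univ_succ]

theorem card_dvd_five (hρ : Function.Injective ρ) {K : Subgroup S}
    (hK : (Nat.card K).Coprime 3) {M : Submodule (ZMod 3) E} (hM : K ≤ comSub ρ M)
    (h : finrank (ZMod 3) M ≤ 5) : Nat.card K ∣ 13 * 2 ^ 10 * (3 ^ 10 * 5 * 11 ^ 2) := by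
  refine (card_dvd_units hρ hK hM).trans ?_
  rw [card_units_end rfl]
  generalize finrank (ZMod 3) M = n at h
  interval_cases n <;> simp [Fin.prod_univ_succ]

theorem normal_thirteen {G : Type*} [Group G] [Finite G] (h : Nat.card G ∣ 13 * 2 ^ 10)
    {P : Subgroup G} (hP : Nat.card P = 13) : P.Normal := by
  haveI : Fact (Nat.Prime 13) := ⟨by norm_num⟩
  have hi : P.index ∣ 2 ^ 10 := by
    rw [← P.card_mul_index, hP] at h
    exact Nat.dvd_of_mul_dvd_mul_left (by norm_num) h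
  have hnd : ¬ 13 ∣ P.index := fun e => by
    have := e.trans hi
    norm_num at this
  let Q : Sylow 13 G := (IsPGroup.of_card (n := 1) (by simpa using hP)).toSylow hnd
  have h1 : Nat.card (Sylow 13 G) ∣ 2 ^ 10 := (Q.card_dvd_index).trans hi
  obtain ⟨c, hc, e⟩ := (Nat.dvd_prime_pow Nat.prime_two).1 h1
  have h2 := card_sylow_modEq_one 13 G
  rw [e] at h2
  have hc0 : c = 0 := by
    interval_cases c <;> simp_all [Nat.ModEq]
  rw [hc0, pow_zero] at e
  haveI : Subsingleton (Sylow 13 G) := (Nat.card_eq_one_iff_unique.1 e).1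
  exact Sylow.normal_of_subsingleton Q

theorem comm_of_norm {w g h : S} (hg : g ∈ normalizer (zpowers w : Set S))
    (hh : h ∈ normalizer (zpowers w : Set S)) : w * ⁅g, h⁆ = ⁅g, h⁆ * w := by
  obtain ⟨j, hj⟩ := mem_zpowers_iff.1 (((mem_normalizer_iff.1 (inv_mem hg)) w).1 (mem_zpowers w))
  obtain ⟨k, hk⟩ := mem_zpowers_iff.1 (((mem_normalizer_iff.1 (inv_mem hh)) w).1 (mem_zpowers w))
  have e1 : g⁻¹ * h⁻¹ * w * (g⁻¹ * h⁻¹)⁻¹ = w ^ (j * k) := by
    calc _ = g⁻¹ * (h⁻¹ * w * h⁻¹⁻¹) * g⁻¹⁻¹ := by group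
      _ = (g⁻¹ * w * g⁻¹⁻¹) ^ k := by rw [← hk, conj_zpow]
      _ = _ := by rw [← hj, zpow_mul]
  have e2 : h⁻¹ * g⁻¹ * w * (h⁻¹ * g⁻¹)⁻¹ = w ^ (j * k) := by
    calc _ = h⁻¹ * (g⁻¹ * w * g⁻¹⁻¹) * h⁻¹⁻¹ := by group
      _ = (h⁻¹ * w * h⁻¹⁻¹) ^ j := by rw [← hj, conj_zpow]
      _ = _ := by rw [← hk, ← zpow_mul, mul_comm k j]
  calc w * ⁅g, h⁆ = g * h * (h⁻¹ * g⁻¹ * w * (h⁻¹ * g⁻¹)⁻¹) * g⁻¹ * h⁻¹ := by
        rw [commutatorElement_def]; group
    _ = g * h * (g⁻¹ * h⁻¹ * w * (g⁻¹ * h⁻¹)⁻¹) * g⁻¹ * h⁻¹ := by rw [e1, e2]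
    _ = ⁅g, h⁆ * w := by rw [commutatorElement_def]; group

theorem conj_eq_of_five {w b : S} (hb : b * b * b = 1) (hw : orderOf w = 5)
    (h : b * w * b⁻¹ ∈ zpowers w) : b * w * b⁻¹ = w := by
  have hf : IsOfFinOrder w := orderOf_pos_iff.1 (by omega)
  obtain ⟨j, hj⟩ := hf.mem_powers_iff_mem_zpowers.2 h
  simp only at hj
  have e : w ^ (j * j * j) = w ^ 1 := by
    have e2 : w ^ (j * j) = b * (b * w * b⁻¹) * b⁻¹ := by rw [pow_mul, hj, conj_pow, hj]
    rw [pow_mul, e2, conj_pow, conj_pow, hj, pow_one]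
    calc _ = (b * b * b) * w * (b * b * b)⁻¹ := by group
      _ = w := by rw [hb]; group
  rw [pow_eq_pow_iff_modEq, hw] at e
  have : j ≡ 1 [MOD 5] := by
    unfold Nat.ModEq at e ⊢
    rw [Nat.mul_mod, Nat.mul_mod j j] at e
    have : j % 5 < 5 := Nat.mod_lt _ (by norm_num)
    generalize j % 5 = m at e this ⊢
    interval_cases m <;> simp_all
  rw [← hj, ← hw, ← pow_eq_pow_iff_modEq, pow_one] at *
  exact this

theorem finrank_span_pair_le (x y : E) :
    finrank (ZMod 3) (Submodule.span (ZMod 3) ({x, y} : Set E)) ≤ 2 := by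
  classical
  have := (finrank_span_finset_le_card (R := ZMod 3) ({x, y} : Finset E)).trans Finset.card_le_two
  rwa [Set.finrank, Finset.coe_insert, Finset.coe_singleton] at this

theorem finrank_span_three_le (x y z : E) :
    finrank (ZMod 3) (Submodule.span (ZMod 3) ({x, y, z} : Set E)) ≤ 3 := by
  classical
  have := (finrank_span_finset_le_card (R := ZMod 3) ({x, y, z} : Finset E)).trans
    Finset.card_le_three
  rwa [Set.finrank, Finset.coe_insert, Finset.coe_insert, Finset.coe_singleton] at this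

variable [Finite S] {b q1 q2 q3 : S} {u1 u2 u3 : E}

theorem Trip.centralizes (h : Trip ρ b q1 q2 q3 u1 u2 u3) (hρ : Function.Injective ρ)
    {H T : Subgroup S} {r : ℕ} (hr : r.Prime) (hr2 : r ≠ 2) (hr3 : r ≠ 3)
    (hH : ∀ p : ℕ, p.Prime → p ∣ Nat.card H → p = 2 ∨ p = r) (h1 : q1 ∈ H) (h2 : q2 ∈ H)
    (hTH : T ≤ H) (hT : IsPGroup r T) (hbT : b ∈ normalizer (T : Set S)) {x : S} (hx : x ∈ T) :
    x * b = b * x := by
  haveI : Fact r.Prime := ⟨hr⟩
  by_contra hne
  have hH3 : (Nat.card H).Coprime 3 := by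
    rw [Nat.coprime_comm, Nat.prime_three.coprime_iff_not_dvd]
    intro e
    rcases hH 3 Nat.prime_three e with e | e <;> omega
  set w := x * b * x⁻¹ * b⁻¹ with hw
  have hw1 : w ≠ 1 := fun e => hne (by
    calc x * b = w * (b * x) := by rw [hw]; group
      _ = _ := by rw [e, one_mul])
  have hwT : w ∈ T := by
    rw [hw, mul_assoc, mul_assoc, ← mul_assoc b]
    exact mul_mem hx ((mem_normalizer_iff.1 hbT _).1 (inv_mem hx))
  set W : Submodule (ZMod 3) E := Submodule.span (ZMod 3) {u2 - u1, u3 - u2} with hW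
  have hbW : b ∈ comSub ρ W := fun v => by
    obtain ⟨α, β, e⟩ := h.span v
    exact Submodule.mem_span_pair.2 ⟨α, β, e.symm⟩
  have hxW : x * b * x⁻¹ ∈ comSub ρ (W.map (ρ x)) := fun v => by
    refine ⟨_, hbW (ρ x⁻¹ v), ?_⟩
    rw [map_sub, app_inv, app_app, app_app]
  have hWx : finrank (ZMod 3) (W.map (ρ x)) ≤ 2 :=
    (Submodule.finrank_map_le _ _).trans (finrank_span_pair_le _ _)
  have mono : ∀ {M M' : Submodule (ZMod 3) E}, M ≤ M' → comSub ρ M ≤ comSub ρ M' :=
    fun hM g hg v => hM (hg v)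
  have hbM : b ∈ comSub ρ (W ⊔ W.map (ρ x)) := mono le_sup_left hbW
  have hwM : w ∈ comSub ρ (W ⊔ W.map (ρ x)) := mul_mem (mono le_sup_right hxW) (inv_mem hbM)
  set T1 := T ⊓ comSub ρ (W ⊔ W.map (ρ x)) with hT1
  have hwT1 : w ∈ T1 := ⟨hwT, hwM⟩
  have hd : Nat.card T1 ∣ 5 * 13 * (2 ^ 9 * 3 ^ 6) :=
    card_dvd_four hρ (hH3.coprime_dvd_left (card_dvd_of_le (inf_le_left.trans hTH))) inf_le_right
      ((Submodule.finrank_add_le_finrank_add_finrank _ _).trans (by
        have : finrank (ZMod 3) W ≤ 2 := finrank_span_pair_le (u2 - u1) (u3 - u2)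
        omega))
  obtain ⟨k, hk⟩ := (hT.to_le (inf_le_left : T1 ≤ T)).exists_card_eq
  have hd' : r ^ k ∣ 5 * 13 := by
    rw [hk] at hd
    refine Nat.Coprime.dvd_of_dvd_mul_right (Nat.Coprime.pow_left _ ?_) hd
    exact Nat.Coprime.mul_right (Nat.Coprime.pow_right _ ((Nat.coprime_primes hr Nat.prime_two).2 hr2))
      (Nat.Coprime.pow_right _ ((Nat.coprime_primes hr Nat.prime_three).2 hr3))
  have hk0 : k ≠ 0 := by
    rintro rfl
    rw [pow_zero, card_eq_one] at hk
    exact hw1 (mem_bot.1 (hk ▸ hwT1))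
  have hr' : (r = 5 ∨ r = 13) ∧ k = 1 := by
    have h5 : r = 5 ∨ r = 13 := by
      rcases (Nat.Prime.dvd_mul hr).1 ((dvd_pow_self r hk0).trans hd') with e | e
      · exact Or.inl ((Nat.prime_dvd_prime_iff_eq hr (by norm_num)).1 e)
      · exact Or.inr ((Nat.prime_dvd_prime_iff_eq hr (by norm_num)).1 e)
    refine ⟨h5, ?_⟩
    by_contra hk1
    have := (pow_dvd_pow r (show 2 ≤ k by omega)).trans hd'
    rcases h5 with rfl | rfl <;> norm_num at this
  obtain ⟨hr', rfl⟩ := hr'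
  rw [pow_one] at hk
  have hwo : orderOf w = r := by
    have : orderOf w ∣ r := by
      rw [← hk, ← orderOf_mk w hwT1]; exact orderOf_dvd_natCard _
    exact ((Nat.dvd_prime hr).1 this).resolve_left fun e => hw1 (orderOf_eq_one_iff.1 e)
  have hz : zpowers w = T1 :=
    eq_of_le_of_card_ge (zpowers_le.2 hwT1) (by rw [Nat.card_zpowers, hwo, hk])
  have hbn : b ∈ normalizer (zpowers w : Set S) := by
    rw [hz, hT1]
    exact GT.CopAct.le_normalizer_inf (A := zpowers b) (zpowers_le.2 hbT)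
      ((zpowers_le.2 hbM).trans le_normalizer) (mem_zpowers b)
  have hnc : b * w * b⁻¹ ≠ w := fun e => by
    have c : Commute w b := by
      change w * b = b * w
      conv_lhs => rw [← e]
      group
    have e3 : (w * b) ^ 3 = 1 := by
      rw [hw, inv_mul_cancel_right, conj_pow, pow_succ, pow_two, h.g.b3]; group
    rw [c.mul_pow, pow_succ b, pow_two b, h.g.b3, mul_one] at e3
    have := orderOf_dvd_of_pow_eq_one e3
    rw [hwo, Nat.prime_dvd_prime_iff_eq hr Nat.prime_three] at this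
    exact hr3 this
  rcases hr' with rfl | rfl
  · exact hnc (conj_eq_of_five h.g.b3 hwo ((mem_normalizer_iff.1 hbn w).1 (mem_zpowers w)))
  set U : Submodule (ZMod 3) E := Submodule.span (ZMod 3) {u1, u2, u3} with hU
  have m1 : u1 ∈ U := Submodule.subset_span (by simp)
  have m2 : u2 ∈ U := Submodule.subset_span (by simp)
  have m3 : u3 ∈ U := Submodule.subset_span (by simp)
  have hWU : W ≤ U := by
    rw [hW, Submodule.span_le]
    rintro _ (rfl | rfl)
    · exact sub_mem m2 m1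
    · exact sub_mem m3 m2
  have hq1 : q1 ∈ comSub ρ U := fun v => by
    obtain ⟨c, α, β, γ, c1, -, -, e⟩ := h.decomp v
    rw [e]
    simp only [map_add, map_smul, c1, h.q11, h.q12, h.q13]
    have : c + α • u1 + β • -u2 + γ • -u3 - (c + α • u1 + β • u2 + γ • u3) =
        (-2 * β) • u2 + (-2 * γ) • u3 := by module
    rw [this]
    exact add_mem (U.smul_mem _ m2) (U.smul_mem _ m3)
  have hq2 : q2 ∈ comSub ρ U := by
    rw [h.g.e2]
    exact mul_mem (mul_mem (mono hWU hbW) hq1) (inv_mem (mono hWU hbW))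
  set K := H ⊓ comSub ρ (U ⊔ W.map (ρ x)) with hK
  have hwK : w ∈ K := ⟨hTH hwT, mono (sup_le_sup_right hWU _) hwM⟩
  have hdK : Nat.card K ∣ 13 * 2 ^ 10 * (3 ^ 10 * 5 * 11 ^ 2) :=
    card_dvd_five hρ (hH3.coprime_dvd_left (card_dvd_of_le inf_le_left)) inf_le_right
      ((Submodule.finrank_add_le_finrank_add_finrank _ _).trans (by
        have : finrank (ZMod 3) U ≤ 3 := finrank_span_three_le u1 u2 u3
        omega))
  have hdK' : Nat.card K ∣ 13 * 2 ^ 10 := by
    refine Nat.Coprime.dvd_of_dvd_mul_right (Nat.coprime_of_dvd fun p hp e => ?_) hdK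
    rcases hH p hp (e.trans (card_dvd_of_le inf_le_left)) with rfl | rfl <;> norm_num
  have hN : ((zpowers w).subgroupOf K).Normal := normal_thirteen hdK' (by
    rw [Nat.card_congr (subgroupOfEquivOfLe (zpowers_le.2 hwK)).toEquiv, Nat.card_zpowers, hwo])
  have hKn : K ≤ normalizer (zpowers w : Set S) :=
    (normal_subgroupOf_iff_le_normalizer (zpowers_le.2 hwK)).1 hN
  have n1 : q1 ∈ normalizer (zpowers w : Set S) := hKn ⟨h1, mono le_sup_left hq1⟩
  have n2 : q2 ∈ normalizer (zpowers w : Set S) := hKn ⟨h2, mono le_sup_left hq2⟩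
  have n3 : q3 ∈ normalizer (zpowers w : Set S) := h.g.m12 ▸ mul_mem n1 n2
  have c3 : w * q3 = q3 * w := h.g.comm_b ▸ comm_of_norm hbn n1
  have c1 : w * q1 = q1 * w := h.g.rot.comm_b ▸ comm_of_norm hbn n2
  have c2 : w * q2 = q2 * w := h.g.rot.rot.comm_b ▸ comm_of_norm hbn n3
  have odd : ∀ {u : E}, u ≠ 0 → (ρ w u = u ∨ ρ w u = -u) → ∀ g ∈ zpowers w, ρ g u = u := by
    intro u hu e
    have : w ∈ fixSub ρ {u} := by
      intro v hv
      rw [Set.mem_singleton_iff.1 hv]
      refine e.resolve_right fun e => hu (eq_zero_of_eq_neg ?_)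
      have e2 : w * w ∈ fixSub ρ {u} := by
        intro v hv
        rw [Set.mem_singleton_iff.1 hv, ← app_app, e, map_neg, e, neg_neg]
      have e13 : w = ((w * w) ^ 7) := by
        rw [← pow_two, ← pow_mul, show 2 * 7 = 13 + 1 from rfl, pow_succ, ← hwo,
          pow_orderOf_eq_one, one_mul]
      have := pow_mem e2 7 u rfl
      rw [← e13, e] at this
      exact this.symm
    exact fun g hg => zpowers_le.2 this hg u rfl
  have hc : ⁅w, b⁆ ∈ zpowers w := by
    rw [commutatorElement_def, mul_assoc, mul_assoc, ← mul_assoc b]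
    exact mul_mem (mem_zpowers w) ((mem_normalizer_iff.1 hbn _).1 (inv_mem (mem_zpowers w)))
  have hfix : ⁅w, b⁆ ∈ fixSub ρ {c | ρ q1 c = c ∧ ρ q2 c = c} := by
    refine commutator_le_fixSub (R := zpowers w) (fun g hg c hc => ?_)
      (fun c hc => h.fixC hc.1 hc.2) (commutator_mem_commutator (mem_zpowers w) (mem_zpowers b))
    have d1 : g * q1 = q1 * g := by
      obtain ⟨n, rfl⟩ := hg
      exact (Commute.zpow_left c1 n).eq
    have d2 : g * q2 = q2 * g := by
      obtain ⟨n, rfl⟩ := hg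
      exact (Commute.zpow_left c2 n).eq
    exact ⟨by rw [← app_comm d1, hc.1], by rw [← app_comm d2, hc.2]⟩
  have := h.ext hρ (odd h.u0 (h.sign c1 c2) _ hc) (odd h.rot.u0 (h.rot.sign c2 c3) _ hc)
    (odd h.rot.rot.u0 (h.rot.rot.sign c3 c1) _ hc) fun c d1 d2 => hfix c ⟨d1, d2⟩
  rw [commutatorElement_eq_one_iff_mul_comm] at this
  exact hnc (by rw [← this]; group)

/-- The commutator of `b` with an invariant solvable subgroup of order prime to three
containing the four-group is a `2`-group. -/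
theorem Trip.isPGroup_two (h : Trip ρ b q1 q2 q3 u1 u2 u3) (hρ : Function.Injective ρ)
    {K Q : Subgroup S} (hK : Group.IsSolvable K) (hK3 : (Nat.card K).Coprime 3)
    (hB : Nat.card (zpowers b) = 3) (hbK : zpowers b ≤ normalizer (K : Set S)) (hQK : Q ≤ K)
    (hQ : IsPGroup 2 Q) (hbQ : zpowers b ≤ normalizer (Q : Set S)) (h1 : q1 ∈ Q) (h2 : q2 ∈ Q) :
    IsPGroup 2 (⁅K, zpowers b⁆ : Subgroup S) := by
  have hcop : (Nat.card (zpowers b)).Coprime (Nat.card K) := hB ▸ hK3.symm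
  set C := K ⊓ centralizer (zpowers b : Set S) with hC
  have key : ∀ r : ℕ, r.Prime → r ∣ C.relIndex K → r = 2 := by
    intro r hr hd
    by_contra hr2
    haveI : Fact r.Prime := ⟨hr⟩
    have hr3 : r ≠ 3 := by
      rintro rfl
      have := hd.trans (relIndex_dvd_card C K)
      exact (Nat.prime_three.coprime_iff_not_dvd.1 hK3.symm) this
    obtain ⟨H, hH, hbH, hQH⟩ := GT.exists_isPiHallOf_invariant_ge (π := {2, r}) hbK hcop hK hQK
      (fun p hp e => by
        obtain ⟨n, hn⟩ := hQ.exists_card_eq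
        rw [hn] at e
        exact Or.inl ((Nat.prime_dvd_prime_iff_eq hp Nat.prime_two).1 (hp.dvd_of_dvd_pow e))) hbQ
    obtain ⟨T, hT⟩ := GT.CopAct.exists_invariant_sylow hbH
      (GT.CopAct.coprime_mono hcop le_rfl hH.1) (Or.inl (GT.CopAct.isSolvable_zpowers b)) r
    have hTC : (T : Subgroup H).map H.subtype ≤ C := by
      refine le_inf ((map_subtype_le _).trans hH.1) fun x hx => ?_
      have := h.centralizes hρ hr hr2 hr3 hH.2.1 (hQH h1) (hQH h2) (map_subtype_le _)
        (T.isPGroup'.map _) (hT (mem_zpowers b)) hx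
      rintro _ ⟨n, rfl⟩
      exact (Commute.zpow_left this.symm n).eq
    have := hd.trans (relIndex_dvd_of_le_left K hTC)
    rw [← relIndex_mul_relIndex _ H K (map_subtype_le _) hH.1] at this
    rcases (Nat.Prime.dvd_mul hr).1 this with e | e
    · exact GT.Tr.not_dvd_relIndex_map_sylow T e
    · exact hH.2.2 r hr (Or.inr rfl) e
  obtain ⟨T, hT⟩ := GT.CopAct.exists_invariant_sylow hbK hcop (Or.inr hK) 2
  have hcp : (((T : Subgroup K).map K.subtype).relIndex K).Coprime (C.relIndex K) :=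
    Nat.coprime_of_dvd fun p hp e e' => by
      rw [key p hp e'] at e
      exact GT.Tr.not_dvd_relIndex_map_sylow T e
  refine (T.isPGroup'.map K.subtype).to_le (commutator_le.2 fun k hk c hc => ?_)
  obtain ⟨x, hx, y, hy, rfl⟩ :=
    GT.CopAct.exists_mul_of_coprime_relIndex (map_subtype_le _) inf_le_left hcp k hk
  have e : ⁅x * y, c⁆ = x * (c * x⁻¹ * c⁻¹) := by
    rw [commutatorElement_def, mul_assoc x, ← hy.2 c hc]; group
  rw [e]
  exact mul_mem hx ((mem_normalizer_iff.1 (hT hc) _).1 (inv_mem hx))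

end Cfsg.Agent.NS.Cub
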