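import Mathlib
import Cfsg.Agent.NS.CubA
import Cfsg.Agent.GT.CoprimeBasic
import Cfsg.Prelude.Def_Transfer

/-!
The decomposition of the module under `R = ⁅R, b⁆` in the situation of `CubA`.
-/

set_option autoImplicit false

namespace Cfsg.Agent.NS.Cub

open Subgroup Module
open scoped commutatorElement

variable {S : Type*} [Group S] {E : Type*} [AddCommGroup E] [Module (ZMod 3) E]
  {ρ : Representation (ZMod 3) S E}

/-- Fixed vectors of `R`. -/
def F1 (ρ : Representation (ZMod 3) S E) (R : Subgroup S) : Submodule (ZMod 3) E where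
  carrier := {v | ∀ r ∈ R, ρ r v = v}
  zero_mem' := fun r _ => map_zero _
  add_mem' := fun ha hb r hr => by rw [map_add, ha r hr, hb r hr]
  smul_mem' := fun c v hv r hr => by rw [map_smul, hv r hr]

/-- The commutator space of `R`. -/
def F0 (ρ : Representation (ZMod 3) S E) (R : Subgroup S) : Submodule (ZMod 3) E :=
  Submodule.span (ZMod 3) {w | ∃ r ∈ R, ∃ v, ρ r v - v = w}

variable {R : Subgroup S}

theorem sub_mem_F0 {r : S} (hr : r ∈ R) (v : E) : ρ r v - v ∈ F0 ρ R :=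
  Submodule.subset_span ⟨r, hr, v, rfl⟩

theorem F0_le {N : Submodule (ZMod 3) E} (h : R ≤ comSub ρ N) : F0 ρ R ≤ N :=
  Submodule.span_le.2 (by rintro _ ⟨r, hr, v, rfl⟩; exact h hr v)

theorem F0_inv {g : S} (hg : g ∈ normalizer (R : Set S)) {v : E} (hv : v ∈ F0 ρ R) :
    ρ g v ∈ F0 ρ R := by
  refine (F0_le (N := (F0 ρ R).comap (ρ g)) fun r hr w => ?_) hv
  have := sub_mem_F0 (ρ := ρ) ((mem_normalizer_iff.1 hg r).1 hr) (ρ g w)
  rw [app_app, inv_mul_cancel_right] at this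
  rw [Submodule.mem_comap, map_sub, app_app]
  exact this

theorem F0_inf_F1 [Finite S] (h : (Nat.card R).Coprime 3) : F0 ρ R ⊓ F1 ρ R = ⊥ := by
  classical
  letI := Fintype.ofFinite R
  let s : E →ₗ[ZMod 3] E := ∑ r : R, ρ r
  have hs : F0 ρ R ≤ LinearMap.ker s := F0_le fun r hr v => by
    rw [LinearMap.mem_ker, map_sub, sub_eq_zero]
    simp only [s, LinearMap.coe_sum, Finset.sum_apply, app_app]
    exact Fintype.sum_equiv (Equiv.mulRight ⟨r, hr⟩) _ _ fun x => rfl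
  refine eq_bot_iff.2 fun v hv => ?_
  have h0 : s v = 0 := hs hv.1
  simp only [s, LinearMap.coe_sum, Finset.sum_apply] at h0
  rw [Finset.sum_congr rfl fun (r : R) _ => hv.2 r r.2, Finset.sum_const, Finset.card_univ,
    ← Nat.card_eq_fintype_card, ← Nat.cast_smul_eq_nsmul (ZMod 3), smul_eq_zero] at h0
  refine h0.resolve_left ?_
  rw [ZMod.natCast_eq_zero_iff]
  exact Nat.prime_three.coprime_iff_not_dvd.1 h.symm

theorem F0_sup_F1 [Finite S] (h : (Nat.card R).Coprime 3) : F0 ρ R ⊔ F1 ρ R = ⊤ := by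
  classical
  letI := Fintype.ofFinite R
  refine eq_top_iff.2 fun v _ => ?_
  have h0 : ((Nat.card R : ℕ) : ZMod 3) ≠ 0 := by
    rw [Ne, ZMod.natCast_eq_zero_iff]
    exact Nat.prime_three.coprime_iff_not_dvd.1 h.symm
  rw [← Submodule.smul_mem_iff _ h0]
  have e : ((Nat.card R : ℕ) : ZMod 3) • v = -(∑ r : R, (ρ r v - v)) + ∑ r : R, ρ r v := by
    rw [Finset.sum_sub_distrib, Finset.sum_const, Finset.card_univ, ← Nat.card_eq_fintype_card,
      Nat.cast_smul_eq_nsmul]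
    abel
  rw [e]
  refine Submodule.add_mem_sup (neg_mem (Submodule.sum_mem _ fun r _ => sub_mem_F0 r.2 v))
    fun r hr => ?_
  simp only [map_sum, app_app]
  exact Fintype.sum_equiv (Equiv.mulLeft ⟨r, hr⟩) _ _ fun x => rfl

/-- The standing hypotheses on `R`. -/
structure Sett (ρ : Representation (ZMod 3) S E) (R : Subgroup S) (b : S) : Prop where
  inj : Function.Injective ρ
  cop : (Nat.card R).Coprime 3
  norm : b ∈ normalizer (R : Set S)
  comm : ⁅R, zpowers b⁆ = R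

variable [Finite S] {b q1 q2 q3 : S} {u1 u2 u3 : E}

theorem Sett.split (H : Sett ρ R b) (v : E) : ∃ f ∈ F0 ρ R, ∃ f' ∈ F1 ρ R, f + f' = v :=
  Submodule.mem_sup.1 ((F0_sup_F1 H.cop).ge Submodule.mem_top)

omit [Finite S] in
theorem Trip.mem_F0 (h : Trip ρ b q1 q2 q3 u1 u2 u3) (h2 : q2 ∈ R) : u1 ∈ F0 ρ R := by
  have := sub_mem_F0 (ρ := ρ) h2 u1
  rw [h.q21] at this
  convert this using 1
  linear_combination (norm := abel) three u1

theorem Sett.faithful (H : Sett ρ R b) (h : Trip ρ b q1 q2 q3 u1 u2 u3) (h1 : q1 ∈ R)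
    (h2 : q2 ∈ R) {g : S} (hg : g ∈ R ⊔ zpowers b) (h0 : ∀ v ∈ F0 ρ R, ρ g v = v) : g = 1 := by
  have : R ⊔ zpowers b ≤ fixSub ρ (F1 ρ R : Set E) :=
    sup_le (fun r hr v hv => hv r hr) (zpowers_le.2 fun v hv => h.fixC (hv _ h1) (hv _ h2))
  refine H.inj (LinearMap.ext fun v => ?_)
  obtain ⟨f, hf, f', hf', rfl⟩ := H.split v
  rw [app_one, map_add, h0 f hf, this hg f' hf']

theorem Sett.irred (H : Sett ρ R b) (h : Trip ρ b q1 q2 q3 u1 u2 u3) (h1 : q1 ∈ R)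
    (h2 : q2 ∈ R) {N : Submodule (ZMod 3) E} (hN : N ≤ F0 ρ R) (hR : ∀ r ∈ R, ∀ v ∈ N, ρ r v ∈ N)
    (hb : ∀ v ∈ N, ρ b v ∈ N) : N = ⊥ ∨ N = F0 ρ R := by
  rcases h.mem_of_ne (hR _ h1) (hR _ h2) hb with e | ⟨m1, m2, m3⟩
  · left
    have : R ≤ fixSub ρ (N : Set E) :=
      H.comm.ge.trans (commutator_le_fixSub hR fun v hv => h.fixC (e v hv).1 (e v hv).2)
    exact eq_bot_iff.2 fun v hv => (F0_inf_F1 H.cop).le ⟨hN hv, fun r hr => this hr v hv⟩
  · right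
    refine le_antisymm hN (F0_le (H.comm.ge.trans (commutator_le_comSub hR fun v => ?_)))
    obtain ⟨α, β, e⟩ := h.span v
    rw [e]
    exact add_mem (N.smul_mem _ (sub_mem m2 m1)) (N.smul_mem _ (sub_mem m3 m2))

theorem Sett.central (H : Sett ρ R b) (h : Trip ρ b q1 q2 q3 u1 u2 u3) (h1 : q1 ∈ R)
    (h2 : q2 ∈ R) {z : S} (hz : z ∈ R) (hzR : ∀ r ∈ R, z * r = r * z) (hzb : z * b = b * z) :
    z = 1 ∨ ∀ v ∈ F0 ρ R, ρ z v = -v := by
  have key : ∀ ε : ZMod 3, ρ z u1 = ε • u1 → ∀ v ∈ F0 ρ R, ρ z v = ε • v := by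
    intro ε e
    let N : Submodule (ZMod 3) E := F0 ρ R ⊓ LinearMap.eqLocus (ρ z) (ε • LinearMap.id)
    have inv : ∀ g ∈ normalizer (R : Set S), z * g = g * z → ∀ v ∈ N, ρ g v ∈ N :=
      fun g hg c v hv => ⟨F0_inv hg hv.1, by
        have : ρ z v = ε • v := hv.2
        change ρ z (ρ g v) = ε • ρ g v
        rw [app_comm c, this, map_smul]⟩
    rcases H.irred h h1 h2 (N := N) inf_le_left (fun r hr => inv r (le_normalizer hr) (hzR r hr))
      (inv b H.norm hzb) with e' | e'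
    · exact absurd (e'.le (show u1 ∈ N from ⟨h.mem_F0 h2, e⟩)) h.u0
    · exact fun v hv => (e'.ge hv).2
  rcases h.sign (hzR _ h1) (hzR _ h2) with e | e
  · exact Or.inl (H.faithful h h1 h2 (mem_sup_left hz) fun v hv => by
      rw [key 1 (by rw [e, one_smul]) v hv, one_smul])
  · exact Or.inr fun v hv => by rw [key (-1) (by rw [e, neg_one_smul]) v hv, neg_one_smul]

omit [Finite S] in
theorem Trip.fix_two (h : Trip ρ b q1 q2 q3 u1 u2 u3) {d : S} (c1 : d * q1 = q1 * d)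
    (c2 : d * q2 = q2 * d) :
    ∃ x, (x = 1 ∨ x = q1 ∨ x = q2 ∨ x = q3) ∧ ρ (d * x) u1 = u1 ∧ ρ (d * x) u2 = u2 := by
  have c3 : d * q3 = q3 * d := by rw [← h.g.m12, ← mul_assoc, c1, mul_assoc, c2, mul_assoc]
  rcases h.sign c1 c2 with e1 | e1 <;> rcases h.rot.sign c2 c3 with e2 | e2
  · exact ⟨1, Or.inl rfl, by rwa [mul_one], by rwa [mul_one]⟩
  · exact ⟨q1, Or.inr (Or.inl rfl), by rw [← app_app, h.q11, e1],
      by rw [← app_app, h.q12, map_neg, e2, neg_neg]⟩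
  · exact ⟨q2, Or.inr (Or.inr (Or.inl rfl)), by rw [← app_app, h.q21, map_neg, e1, neg_neg],
      by rw [← app_app, h.q22, e2]⟩
  · exact ⟨q3, Or.inr (Or.inr (Or.inr rfl)), by rw [← app_app, h.q31, map_neg, e1, neg_neg],
      by rw [← app_app, h.q32, map_neg, e2, neg_neg]⟩

omit [Finite S] in
theorem Rot.comm_four (h : Rot b q1 q2 q3) {x : S} (hx : x = 1 ∨ x = q1 ∨ x = q2 ∨ x = q3) :
    x * q1 = q1 * x ∧ x * q2 = q2 * x ∧ x * x = 1 ∧ x ∈ zpowers q1 ⊔ zpowers q2 := by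
  have m1 : q1 ∈ zpowers q1 ⊔ zpowers q2 := mem_sup_left (mem_zpowers _)
  have m2 : q2 ∈ zpowers q1 ⊔ zpowers q2 := mem_sup_right (mem_zpowers _)
  rcases hx with rfl | rfl | rfl | rfl
  · simp
  · exact ⟨rfl, by rw [h.m12, h.m21], h.s1, m1⟩
  · exact ⟨by rw [h.m12, h.m21], rfl, h.s2, m2⟩
  · exact ⟨by rw [h.m31, h.m13], by rw [h.m32, h.m23], h.s3, h.m12 ▸ mul_mem m1 m2⟩

theorem mem_zpowers_invol {z x : S} (hz : z * z = 1) : x ∈ zpowers z ↔ x = 1 ∨ x = z := by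
  refine ⟨?_, by rintro (rfl | rfl); exacts [one_mem _, mem_zpowers _]⟩
  rintro ⟨n, rfl⟩
  have h2 : z ^ (2 : ℤ) = 1 := by rw [zpow_two, hz]
  rcases Int.even_or_odd' n with ⟨k, rfl | rfl⟩
  · left; simp only; rw [zpow_mul, h2, one_zpow]
  · right; simp only; rw [zpow_add, zpow_mul, h2, one_zpow, one_mul, zpow_one]

theorem card_sup_invol {A : Subgroup S} {u : S} (hu : u * u = 1) (hA : u ∉ A)
    (hn : ∀ a ∈ A, u * a = a * u) : Nat.card ↥(A ⊔ zpowers u) = Nat.card A * 2 := by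
  have hu1 : u ≠ 1 := fun e => hA (e ▸ one_mem A)
  have ho : orderOf u = 2 := orderOf_eq_prime (by rw [pow_two, hu]) hu1
  have hN : zpowers u ≤ normalizer (A : Set S) :=
    (zpowers_le.2 (show u ∈ centralizer (A : Set S) from fun a ha => (hn a ha).symm)).trans
      (centralizer_le_normalizer _)
  have hd : A ⊓ zpowers u = ⊥ := eq_bot_iff.2 fun x hx => by
    rcases (mem_zpowers_invol hu).1 hx.2 with e | e
    · exact e
    · exact absurd (e ▸ hx.1) hA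
  rw [GT.CopAct.card_sup_of_inf_eq_bot hN hd, Nat.card_zpowers, ho]

theorem Rot.card_four (h : Rot b q1 q2 q3) : Nat.card ↥(zpowers q1 ⊔ zpowers q2) = 4 := by
  rw [card_sup_invol h.s2 (fun e => ?_) fun a ha => ?_, Nat.card_zpowers,
    orderOf_eq_prime (p := 2) (by rw [pow_two, h.s1]) h.ne1]
  · rcases (mem_zpowers_invol h.s1).1 e with e | e
    · exact h.rot.ne1 e
    · exact h.ne12 e.symm
  · rcases (mem_zpowers_invol h.s1).1 ha with rfl | rfl
    · simp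
    · exact h.comm12.symm

omit [Finite S] in
theorem elemAb_of_sq {A : Subgroup S} (h : ∀ a ∈ A, a * a = 1) : IsElementaryAbelian 2 A := by
  refine ⟨⟨⟨fun x y => Subtype.ext ?_⟩⟩, fun a ha => by rw [pow_two, h a ha]⟩
  change (x : S) * y = y * x
  rw [← inv_eq_of_mul_eq_one_right (h _ (mul_mem x.2 y.2)), mul_inv_rev,
    inv_eq_of_mul_eq_one_right (h _ x.2), inv_eq_of_mul_eq_one_right (h _ y.2)]

variable [Module.Finite (ZMod 3) E]

/-- The case of a central four-group. -/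
theorem Sett.caseA (H : Sett ρ R b) (h : Trip ρ b q1 q2 q3 u1 u2 u3) (h1 : q1 ∈ R)
    (h2 : q2 ∈ R) (c1 : ∀ r ∈ R, r * q1 = q1 * r) (c2 : ∀ r ∈ R, r * q2 = q2 * r) :
    IsElementaryAbelian 2 R ∧ Nat.card R = 4 := by
  have hle : zpowers q1 ⊔ zpowers q2 ≤ R := sup_le (zpowers_le.2 h1) (zpowers_le.2 h2)
  have hfix : R ≤ fixSub ρ {c | ρ q1 c = c ∧ ρ q2 c = c} :=
    H.comm.ge.trans (commutator_le_fixSub (fun g hg c hc =>
      ⟨by rw [← app_comm (c1 g hg), hc.1], by rw [← app_comm (c2 g hg), hc.2]⟩)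
      fun c hc => h.fixC hc.1 hc.2)
  have key : ∀ r ∈ R, r * r = 1 ∧ r ∈ zpowers q1 ⊔ zpowers q2 := by
    intro r hr
    obtain ⟨x, hx, e1, e2⟩ := h.fix_two (c1 r hr) (c2 r hr)
    obtain ⟨-, -, x2, xm⟩ := h.g.comm_four hx
    have ht : r * x ∈ R := mul_mem hr (hle xm)
    have h3 : q3 ∈ R := h.g.m12 ▸ mul_mem h1 h2
    have c3 : r * x * q3 = q3 * (r * x) := by
      rw [← h.g.m12, ← mul_assoc, c1 _ ht, mul_assoc, c2 _ ht, mul_assoc]
    rcases h.rot.rot.sign c3 (c1 _ ht) with e3 | e3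
    · have := h.ext H.inj e1 e2 e3 fun c d1 d2 => hfix ht c ⟨d1, d2⟩
      rw [eq_inv_of_mul_eq_one_left this, inv_eq_of_mul_eq_one_right x2]
      exact ⟨x2, xm⟩
    · refine (not_refl (H.comm.ge ht) h.rot.rot.u0 e3 fun v => ?_).elim
      obtain ⟨c, α, β, γ, d1, d2, -, e⟩ := h.decomp v
      refine ⟨-2 * γ, ?_⟩
      rw [e]
      simp only [map_add, map_smul, e1, e2, e3, hfix ht c ⟨d1, d2⟩]
      module
  refine ⟨elemAb_of_sq fun r hr => (key r hr).1, ?_⟩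
  rw [le_antisymm (fun r hr => (key r hr).2) hle, h.g.card_four]

/-- The centralizer of a normal elementary abelian subgroup of order eight. -/
theorem Sett.cent_eight (H : Sett ρ R b) (h : Trip ρ b q1 q2 q3 u1 u2 u3) (h1 : q1 ∈ R)
    (h2 : q2 ∈ R) {z : S} (hz : z ∈ R) (hz2 : z * z = 1) (hzR : ∀ r ∈ R, z * r = r * z)
    (hzv : ∀ v ∈ F0 ρ R, ρ z v = -v) {s : S} (hs : s ∈ R) (s1 : s * q1 = q1 * s)
    (s2 : s * q2 * s⁻¹ = z * q2) {d : S} (hd : d ∈ R) (c1 : d * q1 = q1 * d)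
    (c2 : d * q2 = q2 * d) : d * d = 1 ∧ d ∈ zpowers q1 ⊔ zpowers q2 ⊔ zpowers z := by
  have h3 : q3 ∈ R := h.g.m12 ▸ mul_mem h1 h2
  have hle : zpowers q1 ⊔ zpowers q2 ≤ R := sup_le (zpowers_le.2 h1) (zpowers_le.2 h2)
  have l4 : ∀ v ∈ F0 ρ R, ρ q1 v = v → ρ q2 v = v → ∃ α : ZMod 3, v = α • ρ s⁻¹ u1 := by
    intro v hv d1 d2
    obtain ⟨α, e⟩ := h.line (v := ρ s v) (by rw [← app_comm s1, d1]) (by
      have : q2 * s = z * s * q2 := by
        calc q2 * s = z * (z * q2) * s * (q2 * q2) := by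
              rw [h.g.s2, ← mul_assoc, hz2]; group
          _ = z * s * (q2 * (s⁻¹ * s * q2 * q2)) := by rw [← s2]; group
          _ = _ := by rw [inv_mul_cancel, one_mul, h.g.s2, mul_one]
      rw [app_app, this, ← app_app, d2, ← app_app, hzv _ (F0_inv (le_normalizer hs) hv)])
    exact ⟨α, by rw [← map_smul, ← e, inv_app]⟩
  have u4 : ρ s⁻¹ u1 ∈ F0 ρ R := F0_inv (le_normalizer (inv_mem hs)) (h.mem_F0 h2)
  have u41 : ρ q1 (ρ s⁻¹ u1) = ρ s⁻¹ u1 := by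
    rw [← app_comm (Commute.inv_left s1).eq, h.q11]
  have u42 : ρ q2 (ρ s⁻¹ u1) = ρ s⁻¹ u1 := by
    have : q2 * s⁻¹ = s⁻¹ * (z * q2) := by rw [← s2]; group
    rw [app_semi this, ← app_app z q2, h.q21, map_neg, hzv _ (h.mem_F0 h2), neg_neg]
  have fin : ∀ t ∈ R, t * q1 = q1 * t → t * q2 = q2 * t → ρ t u1 = u1 → ρ t u2 = u2 →
      ρ t u3 = u3 → t = 1 := by
    intro t ht t1 t2 e1 e2 e3
    have cs : ∀ c, ρ q1 c = c → ρ q2 c = c → ∃ α : ZMod 3, ∃ f ∈ F1 ρ R, c = α • ρ s⁻¹ u1 + f := by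
      intro c d1 d2
      obtain ⟨f, hf, f', hf', rfl⟩ := H.split c
      rw [map_add, hf' _ h1, add_left_inj] at d1
      rw [map_add, hf' _ h2, add_left_inj] at d2
      obtain ⟨α, e⟩ := l4 f hf d1 d2
      exact ⟨α, f', hf', by rw [← e]⟩
    obtain ⟨ε, e⟩ := l4 (ρ t (ρ s⁻¹ u1)) (F0_inv (le_normalizer ht) u4)
      (by rw [← app_comm t1, u41]) (by rw [← app_comm t2, u42])
    rcases zmod_cases ε with rfl | rfl | rfl
    · exact absurd (by rw [e, zero_smul]) (app_ne_zero (ρ := ρ) t (app_ne_zero s⁻¹ h.u0))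
    · refine h.ext H.inj e1 e2 e3 fun c d1 d2 => ?_
      obtain ⟨α, f, hf, rfl⟩ := cs c d1 d2
      rw [map_add, map_smul, e, one_smul, hf t ht]
    · rw [neg_one_smul] at e
      refine (not_refl (H.comm.ge ht) (app_ne_zero s⁻¹ h.u0) e fun v => ?_).elim
      obtain ⟨c, α, β, γ, d1, d2, -, e'⟩ := h.decomp v
      obtain ⟨δ, f, hf, rfl⟩ := cs c d1 d2
      refine ⟨-2 * δ, ?_⟩
      rw [e']
      simp only [map_add, map_smul, e1, e2, e3, e, hf t ht]
      module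
  obtain ⟨x, hx, e1, e2⟩ := h.fix_two c1 c2
  obtain ⟨x1, x2, xx, xm⟩ := h.g.comm_four hx
  have ht : d * x ∈ R := mul_mem hd (hle xm)
  have t1 : d * x * q1 = q1 * (d * x) := by rw [mul_assoc, x1, ← mul_assoc, c1, mul_assoc]
  have t2 : d * x * q2 = q2 * (d * x) := by rw [mul_assoc, x2, ← mul_assoc, c2, mul_assoc]
  have t3 : d * x * q3 = q3 * (d * x) := by
    rw [← h.g.m12, ← mul_assoc, t1, mul_assoc, t2, mul_assoc]
  rcases h.rot.rot.sign t3 t1 with e3 | e3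
  · have := fin _ ht t1 t2 e1 e2 e3
    rw [eq_inv_of_mul_eq_one_left this, inv_eq_of_mul_eq_one_right xx]
    exact ⟨xx, mem_sup_left xm⟩
  · obtain ⟨y1, y2, yy, ym⟩ := h.g.comm_four (x := q3) (by simp)
    have := fin (d * x * (z * q3)) (mul_mem ht (mul_mem hz h3))
      (by rw [mul_assoc, mul_assoc z, y1, ← mul_assoc z, hzR _ h1, mul_assoc q1, ← mul_assoc, t1,
        mul_assoc])
      (by rw [mul_assoc, mul_assoc z, y2, ← mul_assoc z, hzR _ h2, mul_assoc q2, ← mul_assoc, t2,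
        mul_assoc])
      (by rw [← app_app, ← app_app z, h.q31, map_neg, hzv _ (h.mem_F0 h2), neg_neg, e1])
      (by rw [← app_app, ← app_app z, h.q32, map_neg, hzv _ (h.rot.mem_F0 h3), neg_neg, e2])
      (by rw [← app_app, ← app_app z, h.q33, hzv _ (h.rot.rot.mem_F0 h1), map_neg, e3, neg_neg])
    have x3 : x * q3 = q3 * x := by rw [← h.g.m12, ← mul_assoc, x1, mul_assoc, x2, mul_assoc]
    have hy : x * (z * q3) * (x * (z * q3)) = 1 := by
      calc _ = x * z * (q3 * x) * z * q3 := by group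
        _ = x * (z * x) * (q3 * z) * q3 := by rw [← x3]; group
        _ = (x * x) * (z * z) * (q3 * q3) := by rw [hzR x (hle xm), ← hzR q3 h3]; group
        _ = 1 := by rw [xx, hz2, yy]; group
    rw [mul_assoc] at this
    rw [eq_inv_of_mul_eq_one_left this, inv_eq_of_mul_eq_one_right hy]
    exact ⟨hy, mul_mem (mem_sup_left xm)
      (mul_mem (mem_sup_right (mem_zpowers z)) (mem_sup_left ym))⟩

end Cfsg.Agent.NS.Cub
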