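import Mathlib
import Cfsg.Agent.NS.CubC
import Cfsg.Agent.GT.PGroupExtraspecial

/-!
The structure of the `2`-group `R = ⁅R, b⁆` in the situation of `CubA`.
-/

set_option autoImplicit false

namespace Cfsg.Agent.NS.Cub

open Subgroup Module
open scoped commutatorElement

variable {S : Type*} [Group S]

/-- `r` centralizes `y` modulo `z`. -/
def Cz (z r y : S) : Prop := r * y * r⁻¹ = y ∨ r * y * r⁻¹ = z * y

/-- `z` is the unique non-trivial central element of `R = ⁅R, b⁆`, an involution fixed by `b`. -/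
structure Cen (R : Subgroup S) (b z : S) : Prop where
  b3 : b * b * b = 1
  norm : b ∈ normalizer (R : Set S)
  comm : ⁅R, zpowers b⁆ = R
  mem : z ∈ R
  z2 : z * z = 1
  z1 : z ≠ 1
  zR : ∀ r ∈ R, z * r = r * z
  zb : z * b = b * z
  cen : ∀ y ∈ R, (∀ r ∈ R, r * y = y * r) → y = 1 ∨ y = z

theorem Cz.symm {z r y : S} (hz : z * z = 1) (hy : z * y = y * z) (h : Cz z r y) : Cz z y r := by
  rcases h with h | h
  · left
    calc y * r * y⁻¹ = (r * y * r⁻¹) * r * y⁻¹ := by rw [h]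
      _ = r := by group
  · right
    calc y * r * y⁻¹ = z * (z * y) * r * y⁻¹ := by rw [← mul_assoc z, hz, one_mul]
      _ = z * r := by rw [← h]; group

theorem Cz.mul {z r s y : S} (hz : z * z = 1) (hr : z * r = r * z) (h1 : Cz z r y)
    (h2 : Cz z s y) : Cz z (r * s) y := by
  have e : r * s * y * (r * s)⁻¹ = r * (s * y * s⁻¹) * r⁻¹ := by group
  have e' : r * (z * y) * r⁻¹ = z * (r * y * r⁻¹) := by rw [← mul_assoc r, ← hr]; group
  unfold Cz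
  rw [e]
  rcases h2 with h2 | h2 <;> rw [h2]
  · exact h1
  · rw [e']
    rcases h1 with h1 | h1 <;> rw [h1]
    · exact Or.inr rfl
    · exact Or.inl (by rw [← mul_assoc, hz, one_mul])

theorem Cz.inv {z r y : S} (hz : z * z = 1) (hr : z * r = r * z) (h : Cz z r y) :
    Cz z r⁻¹ y := by
  rcases h with h | h
  · left
    conv_lhs => rw [← h]
    group
  · right
    calc r⁻¹ * y * r⁻¹⁻¹ = r⁻¹ * z * (z * y) * r := by
          rw [mul_assoc r⁻¹ z, ← mul_assoc z, hz, one_mul, inv_inv]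
      _ = r⁻¹ * (z * r) * y := by rw [← h]; group
      _ = z * y := by rw [hr]; group

/-- The elements centralizing `z`, and `y` modulo `z`. -/
def zc {z : S} (hz : z * z = 1) (y : S) : Subgroup S where
  carrier := {r | z * r = r * z ∧ Cz z r y}
  one_mem' := ⟨by simp, Or.inl (by simp)⟩
  mul_mem' := fun {a c} ha hc =>
    ⟨by rw [← mul_assoc, ha.1, mul_assoc, hc.1, mul_assoc], ha.2.mul hz ha.1 hc.2⟩
  inv_mem' := fun {a} ha => ⟨(Commute.inv_right ha.1).eq, ha.2.inv hz ha.1⟩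

namespace Cen

variable {R : Subgroup S} {b z : S} (H : Cen R b z)

/-- The second centre of `R`. -/
def Z2 : Subgroup S := R ⊓ ⨅ r ∈ R, zc H.z2 r

variable {H}

theorem mem_Z2 {y : S} : y ∈ H.Z2 ↔ y ∈ R ∧ ∀ r ∈ R, Cz z r y := by
  simp only [Z2, mem_inf, mem_iInf]
  exact ⟨fun h => ⟨h.1, fun r hr => (h.2 r hr).2.symm H.z2 (H.zR r hr)⟩,
    fun h => ⟨h.1, fun r hr => ⟨H.zR y h.1, (h.2 r hr).symm H.z2 (H.zR y h.1)⟩⟩⟩

theorem z_mem_Z2 : z ∈ H.Z2 :=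
  mem_Z2.2 ⟨H.mem, fun r hr => Or.inl (by rw [← H.zR r hr]; group)⟩

theorem conj_mem_Z2 {y : S} (hy : y ∈ H.Z2) : b * y * b⁻¹ ∈ H.Z2 := by
  obtain ⟨h1, h2⟩ := mem_Z2.1 hy
  refine mem_Z2.2 ⟨(mem_normalizer_iff.1 H.norm y).1 h1, fun r hr => ?_⟩
  have hr' : b⁻¹ * r * b⁻¹⁻¹ ∈ R := (mem_normalizer_iff.1 (inv_mem H.norm) r).1 hr
  have e : r * (b * y * b⁻¹) * r⁻¹ = b * (b⁻¹ * r * b⁻¹⁻¹ * y * (b⁻¹ * r * b⁻¹⁻¹)⁻¹) * b⁻¹ := by
    group
  unfold Cz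
  rw [e]
  rcases h2 _ hr' with h | h <;> rw [h]
  · exact Or.inl rfl
  · exact Or.inr (by rw [← mul_assoc b, ← H.zb]; group)

theorem fpf {y : S} (hy : y ∈ H.Z2) (hb : Cz z b y) : y = 1 ∨ y = z := by
  obtain ⟨h1, h2⟩ := mem_Z2.1 hy
  have hby : b * y * b⁻¹ = y := hb.resolve_right fun h => H.z1 (by
    have e : ∀ w, b * (z * w) * b⁻¹ = z * (b * w * b⁻¹) := fun w => by
      rw [← mul_assoc b, ← H.zb]; group
    have e3 : b * (b * (b * y * b⁻¹) * b⁻¹) * b⁻¹ = y := by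
      calc _ = (b * b * b) * y * (b * b * b)⁻¹ := by group
        _ = y := by rw [H.b3]; group
    rw [h, e, h, e, e, h, ← mul_assoc z z, H.z2, one_mul] at e3
    simpa using e3)
  have hc : Commute y b := by
    change y * b = b * y
    conv_lhs => rw [← hby]
    group
  have : ⁅R, zpowers b⁆ ≤ centralizer {y} := commutator_le.2 fun r hr c hc' => by
    obtain ⟨n, rfl⟩ := hc'
    have c1 : Commute y (b ^ n) := hc.zpow_right n
    have c2 : Commute z (b ^ n) := (show Commute z b from H.zb).zpow_right n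
    rw [mem_centralizer_singleton_iff, commutatorElement_def]
    simp only
    rcases h2 _ (inv_mem hr) with h | h
    · have c3 : Commute y r := by
        change y * r = r * y
        conv_rhs => rw [← h]
        group
      exact (((c3.mul_right c1).mul_right c3.inv_right).mul_right c1.inv_right).eq.symm
    · calc r * b ^ n * r⁻¹ * (b ^ n)⁻¹ * y = r * b ^ n * r⁻¹ * ((b ^ n)⁻¹ * y) := by group
        _ = r * b ^ n * (r⁻¹ * y * r⁻¹⁻¹) * r⁻¹ * (b ^ n)⁻¹ := by rw [← c1.inv_right.eq]; group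
        _ = r * (b ^ n * (z * y)) * r⁻¹ * (b ^ n)⁻¹ := by rw [h]; group
        _ = r * (z * y) * b ^ n * r⁻¹ * (b ^ n)⁻¹ := by rw [← (c2.mul_left c1).eq]; group
        _ = y * (r * b ^ n * r⁻¹ * (b ^ n)⁻¹) := by rw [← h]; group
  exact H.cen y h1 fun r hr => mem_centralizer_singleton_iff.1 (this (H.comm.ge hr))

theorem sq_cases {y : S} (hy : y ∈ H.Z2) : y * y = 1 ∨ y * y = z := by
  obtain ⟨h1, h2⟩ := mem_Z2.1 hy
  refine H.cen _ (mul_mem h1 h1) fun r hr => ?_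
  have e : r * (y * y) = (r * y * r⁻¹) * (r * y * r⁻¹) * r := by group
  rw [e]
  rcases h2 r hr with h | h <;> rw [h]
  calc z * y * (z * y) * r = z * (y * z) * y * r := by group
    _ = (z * z) * y * y * r := by rw [← H.zR y h1]; group
    _ = _ := by rw [H.z2]; group

theorem le_of_adjust {p1 p2 s1 s2 : S} (h1 : p1 ∈ H.Z2) (h2 : p2 ∈ H.Z2) (hs1 : s1 ∈ R)
    (hs2 : s2 ∈ R) (a1 : s1 * p1 * s1⁻¹ = z * p1) (a2 : s1 * p2 * s1⁻¹ = p2)
    (b1 : s2 * p1 * s2⁻¹ = p1) (b2 : s2 * p2 * s2⁻¹ = z * p2) {L : Subgroup S} (l1 : s1 ∈ L)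
    (l2 : s2 ∈ L) (hL : ∀ d ∈ R, d * p1 = p1 * d → d * p2 = p2 * d → d ∈ L) : R ≤ L := by
  have hL' : ∀ d ∈ R, d * p1 * d⁻¹ = p1 → d * p2 * d⁻¹ = p2 → d ∈ L := fun d hd e1 e2 =>
    hL d hd (mul_inv_eq_iff_eq_mul.1 e1) (mul_inv_eq_iff_eq_mul.1 e2)
  have cj : ∀ s r p : S, s * r * p * (s * r)⁻¹ = s * (r * p * r⁻¹) * s⁻¹ := fun s r p => by group
  have cz : ∀ s ∈ R, ∀ p, s * (z * p) * s⁻¹ = z * (s * p * s⁻¹) := fun s hs p => by
    rw [← mul_assoc s, ← H.zR s hs]; group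
  have zz : ∀ p, z * (z * p) = p := fun p => by rw [← mul_assoc, H.z2, one_mul]
  intro r hr
  rcases (mem_Z2.1 h1).2 r hr with e1 | e1 <;> rcases (mem_Z2.1 h2).2 r hr with e2 | e2
  · exact hL' r hr e1 e2
  · exact (mul_mem_cancel_left l2).1 (hL' _ (mul_mem hs2 hr) (by rw [cj, e1, b1])
      (by rw [cj, e2, cz _ hs2, b2, zz]))
  · exact (mul_mem_cancel_left l1).1 (hL' _ (mul_mem hs1 hr) (by rw [cj, e1, cz _ hs1, a1, zz])
      (by rw [cj, e2, a2]))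
  · refine (mul_mem_cancel_left l2).1 ((mul_mem_cancel_left l1).1
      (hL' _ (mul_mem hs1 (mul_mem hs2 hr)) ?_ ?_))
    · rw [cj, cj, e1, cz _ hs2, b1, cz _ hs1, a1, zz]
    · rw [cj, cj, e2, cz _ hs2, b2, zz, a2]

variable [Finite S]

theorem exists_Z2 (hR : IsPGroup 2 R) {M : Subgroup S} (hM : ∀ r ∈ R, ∀ x ∈ M, r * x * r⁻¹ ∈ M)
    {m : S} (hm : m ∈ M) (hmR : m ∈ R) (h1 : m ≠ 1) (h2 : m ≠ z) :
    ∃ x ∈ M, x ∈ H.Z2 ∧ x ≠ 1 ∧ x ≠ z := by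
  haveI := hR.isNilpotent
  haveI : (M.subgroupOf R).Normal := ⟨fun x hx r => hM r r.2 x hx⟩
  obtain ⟨x, hx, hxz, hc⟩ := GT.PG.exists_notMem_commutator_mem (M.subgroupOf R)
    ((zpowers z).subgroupOf R) fun e => by
      have : m ∈ zpowers z := e (show (⟨m, hmR⟩ : R) ∈ M.subgroupOf R from hm)
      rcases (mem_zpowers_invol H.z2).1 this with e | e
      exacts [h1 e, h2 e]
  have hxz' : ¬ ((x : S) = 1 ∨ (x : S) = z) := fun e => hxz ((mem_zpowers_invol H.z2).2 e)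
  refine ⟨x, hx, mem_Z2.2 ⟨x.2, fun r hr => Cz.symm H.z2 (H.zR r hr) ?_⟩,
    fun e => hxz' (Or.inl e), fun e => hxz' (Or.inr e)⟩
  have : (x : S) * r * (x : S)⁻¹ * r⁻¹ ∈ zpowers z := hc ⟨r, hr⟩
  rcases (mem_zpowers_invol H.z2).1 this with e | e
  · exact Or.inl (mul_inv_eq_one.1 e)
  · exact Or.inr (mul_inv_eq_iff_eq_mul.1 e)

theorem exists_invol (hR : IsPGroup 2 R) {q : S} (hq : q ∈ R) (q1 : q ≠ 1) (qz : q ≠ z)
    (qq : q * q = 1) : ∃ p ∈ H.Z2, p ≠ 1 ∧ p ≠ z ∧ p * p = 1 := by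
  by_contra hne
  have sq : ∀ y ∈ H.Z2, y ≠ 1 → y ≠ z → y * y = z := fun y hy h1 h2 =>
    (sq_cases hy).resolve_left fun e => hne ⟨y, hy, h1, h2, e⟩
  obtain ⟨y, -, hy, y1, yz⟩ := exists_Z2 (H := H) hR (M := R)
    (fun r hr x hx => mul_mem (mul_mem hr hx) (inv_mem hr)) hq hq q1 qz
  have hyR := (mem_Z2.1 hy).1
  have nb : ¬ Cz z b y := fun e => (fpf hy e).elim y1 yz
  have hy' := conj_mem_Z2 hy
  set y' := b * y * b⁻¹ with hy'e
  have hy'R := (mem_Z2.1 hy').1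
  have yy := sq y hy y1 yz
  have yy' : y' * y' = z := by
    rw [hy'e, show b * y * b⁻¹ * (b * y * b⁻¹) = b * (y * y) * b⁻¹ by group, yy, ← H.zb]; group
  have nc : ∀ a ∈ H.Z2, ∀ c ∈ H.Z2, a * a = z → c * c = z → a * c = c * a →
      a * c = 1 ∨ a * c = z := by
    intro a ha c hc aa cc e
    by_contra h
    push Not at h
    have := sq _ (mul_mem ha hc) h.1 h.2
    rw [mul_assoc, ← mul_assoc c, ← e, mul_assoc, cc, ← mul_assoc, aa, H.z2] at this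
    exact H.z1 this.symm
  have ncy : y * y' ≠ y' * y := fun e => by
    rcases nc y hy y' hy' yy yy' e with h | h
    · refine nb (Or.inr ?_)
      rw [← hy'e, ← yy, eq_inv_of_mul_eq_one_right h, eq_comm, ← mul_eq_one_iff_eq_inv,
        mul_assoc, yy, H.z2]
    · exact nb (Or.inl (mul_left_cancel (h.trans yy.symm)))
  have a1 : y' * y * y'⁻¹ = z * y := ((mem_Z2.1 hy).2 y' hy'R).resolve_left fun e =>
    ncy (mul_inv_eq_iff_eq_mul.1 e).symm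
  have b2 : y * y' * y⁻¹ = z * y' := ((mem_Z2.1 hy').2 y hyR).resolve_left fun e =>
    ncy (mul_inv_eq_iff_eq_mul.1 e)
  have hle : R ≤ H.Z2 := by
    refine le_of_adjust hy hy' hy'R hyR a1 (by group) (by group) b2 hy' hy fun d hd d1 d2 => ?_
    by_contra hd'
    have cm : ∀ w ∈ H.Z2, ∀ r ∈ R, ∀ x ∈ R, x * w = w * x → r * x * r⁻¹ * w = w * (r * x * r⁻¹) := by
      intro w hw r hr x hx e
      have : x * (r⁻¹ * w * r⁻¹⁻¹) = r⁻¹ * w * r⁻¹⁻¹ * x := by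
        rcases (mem_Z2.1 hw).2 _ (inv_mem hr) with h | h <;> rw [h]
        · exact e
        · rw [← mul_assoc, ← H.zR x hx, mul_assoc, e, mul_assoc]
      calc _ = r * (x * (r⁻¹ * w * r⁻¹⁻¹)) * r⁻¹ := by group
        _ = _ := by rw [this]; group
    obtain ⟨x, hx, hx2, x1, xz⟩ := exists_Z2 (H := H) hR
      (M := R ⊓ centralizer {y} ⊓ centralizer {y'})
      (fun r hr x hx => ⟨⟨R.mul_mem (R.mul_mem hr hx.1.1) (R.inv_mem hr),
        mem_centralizer_singleton_iff.2 (cm y hy r hr x hx.1.1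
          (mem_centralizer_singleton_iff.1 hx.1.2))⟩,
        mem_centralizer_singleton_iff.2 (cm y' hy' r hr x hx.1.1
          (mem_centralizer_singleton_iff.1 hx.2))⟩)
      (m := d) ⟨⟨hd, mem_centralizer_singleton_iff.2 d1⟩, mem_centralizer_singleton_iff.2 d2⟩ hd
      (fun e => hd' (e ▸ one_mem _)) (fun e => hd' (e ▸ z_mem_Z2))
    have c1 : x * y = y * x := mem_centralizer_singleton_iff.1 hx.1.2
    have c2 : Commute x y' := mem_centralizer_singleton_iff.1 hx.2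
    rcases nc x hx2 y hy (sq x hx2 x1 xz) yy c1 with h | h
    · exact ncy (by rw [eq_inv_of_mul_eq_one_right h]; exact c2.inv_left.eq)
    · refine ncy ?_
      rw [show y = x⁻¹ * z by rw [← h]; group]
      exact (c2.inv_left.mul_left (H.zR y' hy'R)).eq
  exact H.z1 ((sq q (hle hq) q1 qz).symm.trans qq)

omit [Finite S] in
theorem exists_rot_Z2 {p : S} (hp : p ∈ H.Z2) (p1 : p ≠ 1) (pz : p ≠ z) (pp : p * p = 1) :
    ∃ q1 q2 q3, q1 ∈ H.Z2 ∧ q2 ∈ H.Z2 ∧ q3 ∈ H.Z2 ∧ Rot b q1 q2 q3 := by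
  have key : ∀ p ∈ H.Z2, p ≠ 1 → p * p = 1 →
      p * (b * p * b⁻¹) * (b * (b * p * b⁻¹) * b⁻¹) = 1 →
      ∃ q1 q2 q3, q1 ∈ H.Z2 ∧ q2 ∈ H.Z2 ∧ q3 ∈ H.Z2 ∧ Rot b q1 q2 q3 := fun p hp p1 pp e =>
    ⟨_, _, _, hp, conj_mem_Z2 hp, conj_mem_Z2 (conj_mem_Z2 hp), rot_of H.b3 pp p1 e⟩
  have hm := mul_mem (mul_mem hp (conj_mem_Z2 hp)) (conj_mem_Z2 (conj_mem_Z2 hp))
  have hpR := (mem_Z2.1 hp).1
  have e3 : b * (b * (b * p * b⁻¹) * b⁻¹) * b⁻¹ = p := by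
    calc _ = (b * b * b) * p * (b * b * b)⁻¹ := by group
      _ = p := by rw [H.b3]; group
  have hc := (mem_Z2.1 hm).2 _ (inv_mem hpR)
  have e : p⁻¹ * (p * (b * p * b⁻¹) * (b * (b * p * b⁻¹) * b⁻¹)) * p⁻¹⁻¹ =
      b * (p * (b * p * b⁻¹) * (b * (b * p * b⁻¹) * b⁻¹)) * b⁻¹ := by
    conv_lhs => rw [inv_inv]; enter [2]; rw [← e3]
    group
  unfold Cz at hc
  rw [e] at hc
  rcases fpf hm hc with h | h
  · exact key p hp p1 pp h
  · have cz : ∀ w, b * (z * w) * b⁻¹ = z * (b * w * b⁻¹) := fun w => by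
      rw [← mul_assoc b, ← H.zb]; group
    refine key (z * p) (mul_mem z_mem_Z2 hp) (fun e => pz ?_) ?_ ?_
    · rw [eq_inv_of_mul_eq_one_right e, inv_eq_of_mul_eq_one_right H.z2]
    · rw [mul_assoc, ← mul_assoc p, ← H.zR p hpR, mul_assoc, pp, mul_one, H.z2]
    · have h1 := H.zR _ (mem_Z2.1 (conj_mem_Z2 hp)).1
      rw [cz, cz]
      calc _ = z * (p * z) * ((b * p * b⁻¹) * z) * (b * (b * p * b⁻¹) * b⁻¹) := by group
        _ = z * z * (p * z) * (b * p * b⁻¹) * (b * (b * p * b⁻¹) * b⁻¹) := by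
          rw [← h1]
          nth_rw 1 [← H.zR p hpR]
          group
        _ = z * z * z * (p * (b * p * b⁻¹) * (b * (b * p * b⁻¹) * b⁻¹)) := by
          rw [← H.zR p hpR]; group
        _ = 1 := by rw [h, H.z2, one_mul, H.z2]

end Cen

variable [Finite S] {E : Type*} [AddCommGroup E] [Module (ZMod 3) E] [Module.Finite (ZMod 3) E]
  {ρ : Representation (ZMod 3) S E} {R : Subgroup S} {b z q1 q2 q3 : S} {u1 u2 u3 : E}

omit [Finite S] in
theorem Rot.mem_four (h : Rot b q1 q2 q3) {x : S} (hx : x ∈ zpowers q1 ⊔ zpowers q2) :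
    x = 1 ∨ x = q1 ∨ x = q2 ∨ x = q3 := by
  let L : Subgroup S :=
    { carrier := {x | x = 1 ∨ x = q1 ∨ x = q2 ∨ x = q3}
      one_mem' := Or.inl rfl
      mul_mem' := by
        rintro a c (rfl | rfl | rfl | rfl) (rfl | rfl | rfl | rfl) <;>
          simp [h.s1, h.s2, h.s3, h.m12, h.m21, h.m13, h.m31, h.m23, h.m32]
      inv_mem' := by
        rintro a (rfl | rfl | rfl | rfl) <;> simp [h.inv1, h.rot.inv1, h.rot.rot.inv1] }
  exact (sup_le (zpowers_le.2 (show q1 ∈ L by simp [L])) (zpowers_le.2 (show q2 ∈ L by simp [L])))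
    hx

open Cen in
theorem Sett.caseB (H : Sett ρ R b) (C : Cen R b z) (hzv : ∀ v ∈ F0 ρ R, ρ z v = -v)
    (h : Trip ρ b q1 q2 q3 u1 u2 u3) (h1 : q1 ∈ C.Z2) (h2 : q2 ∈ C.Z2) {s : S} (hs : s ∈ R)
    (s1 : s * q1 * s⁻¹ = q1) (s2 : s * q2 * s⁻¹ = z * q2) :
    IsExtraspecial 2 R ∧ Nat.card R = 32 ∧
      ∃ A : Subgroup S, A ≤ R ∧ IsElementaryAbelian 2 A ∧ Nat.card A = 8 := by
  have h1R := (mem_Z2.1 h1).1
  have h2R := (mem_Z2.1 h2).1
  have cz : ∀ w, b * (z * w) * b⁻¹ = z * (b * w * b⁻¹) := fun w => by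
    rw [← mul_assoc b, ← C.zb]; group
  have cz' : ∀ s ∈ R, ∀ p, s * (z * p) * s⁻¹ = z * (s * p * s⁻¹) := fun s hs p => by
    rw [← mul_assoc s, ← C.zR s hs]; group
  have zz : ∀ p, z * (z * p) = p := fun p => by rw [← mul_assoc, C.z2, one_mul]
  have nz : ∀ {q1 q2 q3 : S}, Rot b q1 q2 q3 → q1 ≠ z := fun g e =>
    g.ne12 (by rw [g.e2, e, ← C.zb]; group)
  set A := zpowers q1 ⊔ zpowers q2 ⊔ zpowers z with hA
  have hAZ : A ≤ C.Z2 := sup_le (sup_le (zpowers_le.2 h1) (zpowers_le.2 h2)) (zpowers_le.2 z_mem_Z2)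
  have hAR : A ≤ R := fun x hx => (mem_Z2.1 (hAZ hx)).1
  have hD : ∀ d ∈ R, d * q1 = q1 * d → d * q2 = q2 * d → d * d = 1 ∧ d ∈ A := fun d hd c1 c2 =>
    H.cent_eight h h1R h2R C.mem C.z2 C.zR hzv hs (mul_inv_eq_iff_eq_mul.1 s1) s2 hd c1 c2
  have hA8 : Nat.card A = 8 := by
    rw [hA, card_sup_invol C.z2 (fun e => ?_) fun a ha => C.zR a (hAR (mem_sup_left ha)),
      h.g.card_four]
    rcases h.g.mem_four e with e | e | e | e
    exacts [C.z1 e, nz h.g e.symm, nz h.g.rot e.symm, nz h.g.rot.rot e.symm]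
  have hAD : A ≤ centralizer {q1} ⊓ centralizer {q2} := by
    refine sup_le (sup_le (zpowers_le.2 ?_) (zpowers_le.2 ?_)) (zpowers_le.2 ?_) <;>
      simp only [mem_inf, mem_centralizer_singleton_iff]
    exacts [⟨trivial, h.g.comm12⟩, ⟨h.g.comm12.symm, trivial⟩, ⟨C.zR _ h1R, C.zR _ h2R⟩]
  have hAe : IsElementaryAbelian 2 A := elemAb_of_sq fun a ha =>
    (hD a (hAR ha) (mem_centralizer_singleton_iff.1 (hAD ha).1)
      (mem_centralizer_singleton_iff.1 (hAD ha).2)).1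
  have cj : ∀ s r p : S, s * r * p * (s * r)⁻¹ = s * (r * p * r⁻¹) * s⁻¹ := fun s r p => by group
  have bj : ∀ s p : S, b * s * b⁻¹ * (b * p * b⁻¹) * (b * s * b⁻¹)⁻¹ = b * (s * p * s⁻¹) * b⁻¹ :=
    fun s p => by group
  have mj : ∀ s p p' : S, s * (p * p') * s⁻¹ = (s * p * s⁻¹) * (s * p' * s⁻¹) :=
    fun s p p' => by group
  have s3 : s * q3 * s⁻¹ = z * q3 := by
    rw [← h.g.m12, mj, s1, s2, ← mul_assoc, ← C.zR _ h1R, mul_assoc]
  obtain ⟨t, ht⟩ : ∃ t, t = b * s * b⁻¹ := ⟨_, rfl⟩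
  have htR : t ∈ R := ht ▸ (mem_normalizer_iff.1 C.norm s).1 hs
  have t1 : t * q1 * t⁻¹ = z * q1 := by rw [h.g.e1, ht, bj, s3, cz]
  have t2 : t * q2 * t⁻¹ = q2 := by rw [h.g.e2, ht, bj, s1]
  have t3 : t * q3 * t⁻¹ = z * q3 := by rw [h.g.e3, ht, bj, s2, cz]
  obtain ⟨t', ht'⟩ : ∃ t', t' = b * t * b⁻¹ := ⟨_, rfl⟩
  have ht'R : t' ∈ R := ht' ▸ (mem_normalizer_iff.1 C.norm t).1 htR
  have t'1 : t' * q1 * t'⁻¹ = z * q1 := by rw [h.g.e1, ht', bj, t3, cz]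
  have t'2 : t' * q2 * t'⁻¹ = z * q2 := by rw [h.g.e2, ht', bj, t1, cz]
  have inv : ∀ {s p : S}, s ∈ R → s * p * s⁻¹ = z * p → s⁻¹ * p * s⁻¹⁻¹ = z * p := by
    intro s p hs e
    refine (Cz.inv C.z2 (C.zR s hs) (Or.inr e)).resolve_left fun e' => C.z1 ?_
    have : s * p * s⁻¹ = p := by
      conv_lhs => rw [← e']
      group
    rw [this] at e
    simpa using e
  have inv' : ∀ {s p : S}, s * p * s⁻¹ = p → s⁻¹ * p * s⁻¹⁻¹ = p := by
    intro s p e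
    conv_lhs => rw [← e]
    group
  have hc := hD (s * (t * (s⁻¹ * t⁻¹))) (mul_mem hs (mul_mem htR (mul_mem (inv_mem hs)
    (inv_mem htR))))
    (mul_inv_eq_iff_eq_mul.1 (by
      rw [cj, cj, cj, inv htR t1, cz' _ (inv_mem hs), inv' s1, cz' _ htR, t1, zz, s1]))
    (mul_inv_eq_iff_eq_mul.1 (by
      rw [cj, cj, cj, inv' t2, inv hs s2, cz' _ htR, t2, cz' _ hs, s2, zz]))
  have hd := hD (t' * (t⁻¹ * s⁻¹)) (mul_mem ht'R (mul_mem (inv_mem htR) (inv_mem hs)))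
    (mul_inv_eq_iff_eq_mul.1 (by rw [cj, cj, inv' s1, inv htR t1, cz' _ ht'R, t'1, zz]))
    (mul_inv_eq_iff_eq_mul.1 (by
      rw [cj, cj, inv hs s2, cz' _ (inv_mem htR), inv' t2, cz' _ ht'R, t'2, zz]))
  set c := s * (t * (s⁻¹ * t⁻¹)) with hce
  set d := t' * (t⁻¹ * s⁻¹) with hde
  have hy : s * t⁻¹ * s⁻¹ ∈ R := mul_mem (mul_mem hs (inv_mem htR)) (inv_mem hs)
  have hci : t * (s * t⁻¹ * s⁻¹) = c := by
    rw [← inv_eq_of_mul_eq_one_right hc.1, hce]; group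
  have hbc : b * c * b⁻¹ = t * (d * (s * t⁻¹ * s⁻¹) * d⁻¹) := by
    calc b * c * b⁻¹ = t * (t' * (t⁻¹ * t'⁻¹)) := by rw [hce, ht', ht]; group
      _ = _ := by rw [hde]; group
  have hcz : Cz z b c := by
    unfold Cz
    rw [hbc]
    rcases Cz.symm C.z2 (C.zR _ (hAR hd.2)) ((mem_Z2.1 (hAZ hd.2)).2 _ hy) with e | e <;> rw [e]
    · exact Or.inl hci
    · exact Or.inr (by rw [← mul_assoc, ← C.zR t htR, mul_assoc, hci])
  have hst : Cz z s t := by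
    have e : s * t * s⁻¹ = c * t := by rw [hce]; group
    unfold Cz
    rw [e]
    rcases fpf (hAZ hc.2) hcz with e' | e' <;> rw [e']
    · exact Or.inl (one_mul t)
    · exact Or.inr rfl
  have hsZ : s ∈ C.Z2 := mem_Z2.2 ⟨hs, fun r hr => (le_of_adjust h1 h2 htR hs t1 t2 s1 s2
    (L := zc C.z2 s) ⟨C.zR t htR, hst.symm C.z2 (C.zR t htR)⟩ ⟨C.zR s hs, Or.inl (by group)⟩
    (fun d hd c1 c2 => ⟨C.zR d hd,
      ((mem_Z2.1 (hAZ (hD d hd c1 c2).2)).2 s hs).symm C.z2 (C.zR d hd)⟩) hr).2⟩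
  have hRZ : R ≤ C.Z2 := le_of_adjust h1 h2 htR hs t1 t2 s1 s2 (ht ▸ conj_mem_Z2 hsZ) hsZ
    fun d hd c1 c2 => hAZ (hD d hd c1 c2).2
  have hE : GT.PG.ESZ 2 R z := by
    refine ⟨orderOf_eq_prime (by rw [pow_two, C.z2]) C.z1, fun x hx y hy => ?_, fun x hx => ?_,
      le_antisymm (fun x hx => ?_) (zpowers_le.2 ⟨C.mem, fun r hr => (C.zR r hr).symm⟩)⟩
    · rw [mem_zpowers_invol C.z2, commutatorElement_def]
      rcases (mem_Z2.1 (hRZ hy)).2 x hx with e | e <;> rw [e] <;> simp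
    · rw [mem_zpowers_invol C.z2, pow_two]
      exact sq_cases (hRZ hx)
    · exact (mem_zpowers_invol C.z2).2 (C.cen x hx.1 hx.2)
  have nz' : ∀ {q1 q2 q3 : S}, Rot b q1 q2 q3 → q1 ∉ zpowers z := fun g e =>
    ((mem_zpowers_invol C.z2).1 e).elim g.ne1 (nz g)
  refine ⟨GT.PG.isExtraspecial_iff_esz.2 ⟨z, hE, fun e => nz' h.g (e ▸ h1R)⟩, ?_,
    A, hAR, hAe, hA8⟩
  have hle : Nat.card R ≤ 32 := by
    have e := GT.PG.relIndex_mul_card_inf (centralizer {q1} ⊓ centralizer {q2}) R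
    have e' : centralizer {q1} ⊓ centralizer {q2} ⊓ R = A :=
      le_antisymm (fun x hx => (hD x hx.2 (mem_centralizer_singleton_iff.1 hx.1.1)
        (mem_centralizer_singleton_iff.1 hx.1.2)).2) (le_inf hAD hAR)
    have e'' : (centralizer {q1} ⊓ centralizer {q2}).relIndex R ≤ _ := relIndex_inf_le
    rw [hE.relIndex_centralizer h1R (nz' h.g), hE.relIndex_centralizer h2R (nz' h.g.rot)] at e''
    rw [e', hA8] at e
    omega
  have hlt : 8 < Nat.card R := by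
    rw [← hA8]
    refine lt_of_le_of_ne (card_le_of_le hAR) fun e => C.z1 ?_
    have := mem_centralizer_singleton_iff.1 (hAD ((eq_of_le_of_card_ge hAR e.ge).ge hs)).2
    rw [this, mul_inv_cancel_right] at s2
    simpa using s2
  obtain ⟨n, hn⟩ := hE.exists_card_eq
  rw [hn] at hle hlt ⊢
  have h5 : 2 * n + 1 ≤ 5 := (Nat.pow_le_pow_iff_right (by norm_num)).1 (show _ ≤ 2 ^ 5 from hle)
  have h3 : 3 < 2 * n + 1 := (Nat.pow_lt_pow_iff_right (by norm_num)).1 (show 2 ^ 3 < _ from hlt)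
  rw [show n = 2 by omega]; norm_num

theorem Sett.structure (H : Sett ρ R b) (hR : IsPGroup 2 R)
    (hr : finrank (ZMod 3) (LinearMap.range (ρ b - 1)) ≤ 2) (h : Trip ρ b q1 q2 q3 u1 u2 u3)
    (h1 : q1 ∈ R) (h2 : q2 ∈ R) :
    (IsElementaryAbelian 2 R ∧ Nat.card R = 4) ∨ (IsExtraspecial 2 R ∧ Nat.card R = 32 ∧
      ∃ A : Subgroup S, A ≤ R ∧ IsElementaryAbelian 2 A ∧ Nat.card A = 8) := by
  by_cases hZ : ∃ y ∈ R ⊓ centralizer (R : Set S), b * y * b⁻¹ ≠ y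
  · obtain ⟨y, hy, hyb⟩ := hZ
    obtain ⟨p1, p2, p3, m1, m2, -, g⟩ := exists_rot h.g.b3 (A := R ⊓ centralizer (R : Set S))
      (fun x hx y hy => hy.2 x hx.1)
      (fun x hx => ⟨(mem_normalizer_iff.1 H.norm x).1 hx.1, fun r hr => by
        have := hx.2 _ ((mem_normalizer_iff.1 (inv_mem H.norm) r).1 hr)
        calc _ = b * (b⁻¹ * r * b⁻¹⁻¹ * x) * b⁻¹ := by group
          _ = _ := by rw [this]; group⟩)
      (fun x hx => by
        obtain ⟨k, hk⟩ := hR ⟨x, hx.1⟩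
        exact ⟨k, congrArg Subtype.val hk⟩) hy hyb
    obtain ⟨v1, v2, v3, h'⟩ := exists_trip H.inj g hr
    exact Or.inl (H.caseA h' m1.1 m2.1 m1.2 m2.2)
  right
  push Not at hZ
  haveI : Nontrivial R := ⟨⟨⟨q1, h1⟩, 1, fun e => h.g.ne1 (congrArg Subtype.val e)⟩⟩
  haveI := hR.center_nontrivial
  obtain ⟨⟨z, hzc⟩, hz1⟩ := exists_ne (1 : center R)
  have hz1' : (z : S) ≠ 1 := fun e => hz1 (Subtype.ext (Subtype.ext e))
  have cen : ∀ y ∈ R, (∀ r ∈ R, r * y = y * r) → y = 1 ∨ ∀ v ∈ F0 ρ R, ρ y v = -v :=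
    fun y hy hc => H.central h h1 h2 hy (fun r hr => (hc r hr).symm)
      (mul_inv_eq_iff_eq_mul.1 (hZ y ⟨hy, hc⟩)).symm
  have hzR : ∀ r ∈ R, r * z = z * r := fun r hr =>
    congrArg Subtype.val (mem_center_iff.1 hzc ⟨r, hr⟩)
  have hzv := (cen z z.2 hzR).resolve_left hz1'
  have prod : ∀ y ∈ R, (∀ v ∈ F0 ρ R, ρ y v = -v) → y * z = 1 := fun y hy e =>
    H.faithful h h1 h2 (mem_sup_left (mul_mem hy z.2)) fun v hv => by
      rw [← app_app, hzv v hv, map_neg, e v hv, neg_neg]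
  have hz2 := prod z z.2 hzv
  have C : Cen R b z := ⟨h.g.b3, H.norm, H.comm, z.2, hz2, hz1', fun r hr => (hzR r hr).symm,
    (mul_inv_eq_iff_eq_mul.1 (hZ z ⟨z.2, hzR⟩)).symm, fun y hy hc =>
      (cen y hy hc).imp id fun e => mul_right_cancel ((prod y hy e).trans hz2.symm)⟩
  have nz : ∀ {q1 q2 q3 : S}, Rot b q1 q2 q3 → q1 ≠ z := fun g e =>
    g.ne12 (by rw [g.e2, e, ← C.zb]; group)
  obtain ⟨p, hp, p1, pz, pp⟩ := Cen.exists_invol (H := C) hR h1 h.g.ne1 (nz h.g) h.g.s1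
  obtain ⟨p1, p2, p3, m1, m2, m3, g⟩ := Cen.exists_rot_Z2 hp p1 pz pp
  obtain ⟨v1, v2, v3, h'⟩ := exists_trip H.inj g hr
  obtain ⟨s, hs, e1⟩ : ∃ s ∈ R, s * p1 * s⁻¹ = z * p1 := by
    by_contra hne
    push Not at hne
    rcases C.cen p1 (Cen.mem_Z2.1 m1).1 fun r hr => mul_inv_eq_iff_eq_mul.1
      (((Cen.mem_Z2.1 m1).2 r hr).resolve_right (hne r hr)) with e | e
    exacts [g.ne1 e, nz g e]
  have mj : s * p3 * s⁻¹ = (s * p1 * s⁻¹) * (s * p2 * s⁻¹) := by rw [← g.m12]; group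
  rcases (Cen.mem_Z2.1 m2).2 s hs with e2 | e2
  · exact H.caseB C hzv h'.rot m2 m3 hs e2 (by rw [mj, e1, e2, mul_assoc, g.m12])
  · refine H.caseB C hzv h'.rot.rot m3 m1 hs ?_ e1
    rw [mj, e1, e2]
    calc (z : S) * p1 * (z * p2) = z * (p1 * z) * p2 := by group
      _ = (z * z) * (p1 * p2) := by rw [hzR p1 (Cen.mem_Z2.1 m1).1]; group
      _ = p3 := by rw [hz2, one_mul, g.m12]

end Cfsg.Agent.NS.Cub
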