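import Mathlib
import Cfsg.Agent.Perm.SocleLight
import Cfsg.Agent.GT.PGroupFrattini
import Cfsg.Agent.GT.Subnormal2

/-! Tools for S4587: class size bounds, and a `p`-group permuting simple factors. -/

set_option autoImplicit false

namespace Cfsg.Agent.PSq

open Subgroup Cfsg.Agent.GT Cfsg.Agent.Perm.SL Cfsg.Agent.Inv.Fz

variable {G : Type*} [Group G]

/-- if all commutators `[a, x]`, `a ∈ A`, lie in `K`, then `|A : C_A(x)| ≤ |K|` -/
theorem relIndex_cent_le [Finite G] {A K : Subgroup G} {x : G}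
    (h : ∀ a ∈ A, a * x * a⁻¹ * x⁻¹ ∈ K) :
    (centralizer ({x} : Set G)).relIndex A ≤ Nat.card K := by
  let f : A ⧸ (centralizer ({x} : Set G)).subgroupOf A → K := fun q =>
    ⟨_, h q.out q.out.2⟩
  refine Nat.card_le_card_of_injective f fun q r e => ?_
  have e1 : (q.out : G) * x * (q.out : G)⁻¹ * x⁻¹ = (r.out : G) * x * (r.out : G)⁻¹ * x⁻¹ :=
    congrArg Subtype.val e
  rw [← q.out_eq, ← r.out_eq, QuotientGroup.eq, mem_subgroupOf, mem_centralizer_singleton_iff]
  rw [mul_left_inj] at e1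
  simp only [coe_mul, coe_inv]
  calc (q.out : G)⁻¹ * r.out * x
      = (q.out : G)⁻¹ * ((r.out : G) * x * (r.out : G)⁻¹) * r.out := by group
    _ = x * ((q.out : G)⁻¹ * r.out) := by rw [← e1]; group

theorem card_inf_mul_relIndex (A C : Subgroup G) :
    Nat.card ↥(C ⊓ A) * C.relIndex A = Nat.card A := by
  rw [← inf_relIndex_right, GT.card_mul_relIndex inf_le_right]

theorem relIndex_comm_le [Finite G] {P : Subgroup G} {x : G} (hx : x ∈ P) :
    ⁅P, P⁆.relIndex P ≤ Nat.card ↥(centralizer ({x} : Set G) ⊓ P) := by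
  have h1 := relIndex_cent_le (A := P) (K := ⁅P, P⁆) (x := x)
    fun a ha => commutator_mem_commutator ha hx
  have h2 := card_inf_mul_relIndex P (centralizer ({x} : Set G))
  have h3 := GT.card_mul_relIndex (commutator_le_self P)
  have h4 : 0 < Nat.card ↥⁅P, P⁆ := Nat.card_pos
  refine Nat.le_of_mul_le_mul_left ?_ h4
  rw [h3, ← h2, mul_comm]
  exact Nat.mul_le_mul_right _ h1

/-- `P = Q⟨x⟩`, `K ⊴ P` containing `[Q, Q]` and `[Q, x]`: then `P' ≤ K`. -/
theorem comm_le_of_gen {Q K : Subgroup G} [K.Normal] {x : G} (h : Q ⊔ zpowers x = ⊤)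
    (h1 : ∀ a ∈ Q, ∀ b ∈ Q, a * b * a⁻¹ * b⁻¹ ∈ K) (h2 : ∀ a ∈ Q, a * x * a⁻¹ * x⁻¹ ∈ K) :
    commutator G ≤ K := by
  let π := QuotientGroup.mk' K
  have key : ∀ a b : G, a * b * a⁻¹ * b⁻¹ ∈ K → π a ∈ centralizer ({π b} : Set (G ⧸ K)) := by
    intro a b hab
    rw [mem_centralizer_singleton_iff]
    have : π (a * b * a⁻¹ * b⁻¹) = 1 := (QuotientGroup.eq_one_iff _).2 hab
    simp only [map_mul, map_inv] at this
    rwa [mul_inv_eq_one, mul_inv_eq_iff_eq_mul] at this
  have sym : ∀ {a b : G ⧸ K}, a ∈ centralizer ({b} : Set (G ⧸ K)) →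
      b ∈ centralizer ({a} : Set (G ⧸ K)) := fun hab => by
    rw [mem_centralizer_singleton_iff] at hab ⊢; exact hab.symm
  have gen : ∀ y : G ⧸ K, (∀ a ∈ Q, π a ∈ centralizer ({y} : Set (G ⧸ K))) →
      π x ∈ centralizer ({y} : Set (G ⧸ K)) → ∀ g, π g ∈ centralizer ({y} : Set (G ⧸ K)) := by
    intro y ha hx g
    have : Q ⊔ zpowers x ≤ (centralizer ({y} : Set (G ⧸ K))).comap π :=
      sup_le ha (zpowers_le.2 hx)
    exact this (h ▸ mem_top g)
  have hQ : ∀ a ∈ Q, ∀ g, π g ∈ centralizer ({π a} : Set (G ⧸ K)) := fun a ha =>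
    gen _ (fun b hb => key b a (h1 b hb a ha)) (sym (key a x (h2 a ha)))
  have hx : ∀ g, π g ∈ centralizer ({π x} : Set (G ⧸ K)) :=
    gen _ (fun b hb => key b x (h2 b hb)) (by rw [mem_centralizer_singleton_iff])
  rw [commutator_def, commutator_le]
  intro a _ b _
  have := gen (π b) (fun c hc => sym (hQ c hc b)) (sym (hx b)) a
  rw [mem_centralizer_singleton_iff] at this
  rw [← QuotientGroup.eq_one_iff]
  change π _ = 1
  rw [commutatorElement_def]
  simp only [map_mul, map_inv, this]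
  group

/-- abelian normal `Q` with `G = Q⟨x⟩`: `|C_Q(x)| ≤ |Q : G'|` -/
theorem card_cent_le_abelian [Finite G] {Q : Subgroup G} [hQ : Q.Normal]
    (hc : ∀ a ∈ Q, ∀ b ∈ Q, a * b = b * a) {x : G} (h : Q ⊔ zpowers x = ⊤) :
    Nat.card ↥(centralizer ({x} : Set G) ⊓ Q) * Nat.card (commutator G) ≤ Nat.card Q := by
  have hm : ∀ a ∈ Q, x * a⁻¹ * x⁻¹ ∈ Q := fun a ha => hQ.conj_mem _ (Q.inv_mem ha) x
  let f : Q →* G :=
    { toFun := fun a => a * x * (a : G)⁻¹ * x⁻¹
      map_one' := by simp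
      map_mul' := fun a b => by
        have h1 := hc _ (hm a a.2) _ (Q.mul_mem b.2 (hm b b.2))
        simp only [coe_mul]
        calc (a : G) * b * x * ((a : G) * b)⁻¹ * x⁻¹
            = a * ((b * (x * (b : G)⁻¹ * x⁻¹)) * (x * (a : G)⁻¹ * x⁻¹)) := by group
          _ = _ := by rw [← h1]; group }
  have hle : f.range ≤ Q := by
    rintro _ ⟨a, rfl⟩
    have := Q.mul_mem a.2 (hm a a.2)
    simpa [f, mul_assoc] using this
  have hn : f.range.Normal := by
    rw [← normalizer_eq_top_iff, eq_top_iff, ← h]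
    refine sup_le (fun a ha => mem_normalizer_of_conj_mem fun y hy => ?_)
      (zpowers_le.2 (mem_normalizer_of_conj_mem ?_))
    · rw [hc a ha y (hle hy), mul_inv_cancel_right]; exact hy
    · rintro _ ⟨a, rfl⟩
      exact ⟨⟨x * a * x⁻¹, hQ.conj_mem _ a.2 x⟩, by simp [f, mul_assoc]⟩
  have h1 : commutator G ≤ f.range := comm_le_of_gen h
    (fun a ha b hb => by rw [hc a ha b hb]; simp) (fun a ha => ⟨⟨a, ha⟩, rfl⟩)
  have h2 : f.ker = (centralizer ({x} : Set G)).subgroupOf Q := by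
    ext a
    rw [MonoidHom.mem_ker, mem_subgroupOf, mem_centralizer_singleton_iff]
    change (a : G) * x * (a : G)⁻¹ * x⁻¹ = 1 ↔ _
    rw [mul_inv_eq_one, mul_inv_eq_iff_eq_mul]
  have h3 : (centralizer ({x} : Set G)).relIndex Q = Nat.card f.range := by
    rw [relIndex, ← h2, index_ker]
  rw [← card_inf_mul_relIndex Q (centralizer ({x} : Set G)), h3]
  exact Nat.mul_le_mul_left _ (card_le_of_le h1)

/-- evaluation of the transfer from a subgroup when only the trivial coset contributes -/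
theorem transfer_eq_self [Finite G] {H : Subgroup G} {A : Type*} [CommGroup A] (ϕ : H →* A)
    (g : H) (h : ∀ t : G, t ∉ H → ∀ (k : ℕ) (hk : t⁻¹ * (g : G) ^ k * t ∈ H), ϕ ⟨_, hk⟩ = 1) :
    MonoidHom.transfer ϕ (g : G) = ϕ g := by
  classical
  haveI := Fintype.ofFinite (Quotient (MulAction.orbitRel (zpowers (g : G)) (G ⧸ H)))
  rw [MonoidHom.transfer_eq_prod_quotient_orbitRel_zpowers_quot]
  have hfix : (g : G) • ((1 : G) : G ⧸ H) = ((1 : G) : G ⧸ H) := by
    rw [MulAction.Quotient.smul_mk, smul_eq_mul, mul_one, QuotientGroup.eq]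
    simp
  rw [Finset.prod_eq_single (Quotient.mk _ ((1 : G) : G ⧸ H))]
  · have h1 : (Quotient.mk (MulAction.orbitRel (zpowers (g : G)) (G ⧸ H))
        ((1 : G) : G ⧸ H)).out = ((1 : G) : G ⧸ H) := by
      obtain ⟨⟨_, k, rfl⟩, hk⟩ := Quotient.mk_out (s := MulAction.orbitRel (zpowers (g : G))
        (G ⧸ H)) ((1 : G) : G ⧸ H)
      rw [← hk]
      exact (MulAction.stabilizer G ((1 : G) : G ⧸ H)).zpow_mem hfix k
    have h2 : ((1 : G) : G ⧸ H).out ∈ H := by
      have := QuotientGroup.eq.1 (QuotientGroup.out_eq' ((1 : G) : G ⧸ H))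
      simpa using this
    have h3 : Function.minimalPeriod ((g : G) • ·) ((1 : G) : G ⧸ H) = 1 :=
      Function.minimalPeriod_eq_one_iff_isFixedPt.2 hfix
    have h4 : ϕ g = ϕ ((⟨_, h2⟩ : H)⁻¹ * g * ⟨_, h2⟩) := by
      rw [map_mul, map_mul, map_inv, mul_comm, ← mul_assoc, mul_inv_cancel, one_mul]
    rw [h4]
    congr 1
    ext
    simp only [h1, h3, pow_one, coe_mul, coe_inv]
  · intro q _ hq
    refine h _ (fun hm => hq ?_) _ _
    rw [← q.out_eq]
    congr 1
    rw [← q.out.out_eq, QuotientGroup.eq]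
    simpa using hm
  · simp

/-- a `p`-group whose abelianization has order at most `p` has order at most `p` -/
theorem card_le_of_index_le [Finite G] {p : ℕ} [Fact p.Prime] (hG : IsPGroup p G)
    (h : (commutator G).index ≤ p) : Nat.card G ≤ p := by
  have h1 : (frattini G).index ≤ p :=
    (index_antitone (PG.commutator_le_frattini hG)).trans h
  haveI := PG.isCyclic_of_index_frattini_le hG h1
  have h2 : commutator G = ⊥ := by
    letI := IsCyclic.commGroup (α := G)
    exact commutator_eq_bot G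
  rwa [h2, index_bot] at h

end Cfsg.Agent.PSq
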