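import Mathlib
import Cfsg.Agent.NS.PSqA

/-! Tools for S4587: a Sylow `p`-subgroup permuting the simple factors of a minimal normal
subgroup. -/

set_option autoImplicit false

namespace Cfsg.Agent.PSq

open Subgroup Cfsg.Agent.GT Cfsg.Agent.Perm.SL Cfsg.Agent.Inv.Fz

variable {G : Type*} [Group G]

/-- the action of `N` on a simple factor `T` -/
def gam {N T : Subgroup G} (hT : Cp N T) : N →* MulAut T :=
  T.normalizerMonoidHom.comp (inclusion hT.norm)

theorem gam_eq_one {N T : Subgroup G} (hT : Cp N T) {n : N} :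
    gam hT n = 1 ↔ (n : G) ∈ centralizer (T : Set G) := by
  rw [gam, MonoidHom.comp_apply, ← MonoidHom.mem_ker, normalizerMonoidHom_ker, mem_subgroupOf]
  rfl

theorem card_dvd_of_gam {N T : Subgroup G} (hN : IsMinNormal N) (hT : Cp N T)
    (B : Subgroup (MulAut T)) (hB : B ≤ (gam hT).range) : Nat.card B ∣ Nat.card T := by
  have h1 : (gam hT).range ≤ ((gam hT).comp (inclusion hT.le)).range := by
    rintro _ ⟨n, rfl⟩
    obtain ⟨t, ht, c, hc, e⟩ := hT.decomp hN n.2
    refine ⟨⟨t, ht⟩, ?_⟩
    have h2 : n = inclusion hT.le ⟨t, ht⟩ * ⟨c, hc.1⟩ := Subtype.ext e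
    rw [h2, map_mul, (gam_eq_one hT (n := ⟨c, hc.1⟩)).2 hc.2, mul_one, MonoidHom.comp_apply]
  exact (card_dvd_of_le (hB.trans h1)).trans (card_range_dvd _)

theorem isSubnormal_cp {N T : Subgroup G} (hN : IsMinNormal N) (hT : Cp N T) : T.IsSubnormal := by
  haveI := hN.normal
  exact IsSubnormal.step T N hT.le (Normal.isSubnormal hN.normal)
    ((normal_subgroupOf_iff_le_normalizer hT.le).2 hT.norm)

theorem card_sylow_inf_le [Finite G] {p : ℕ} [hp : Fact p.Prime] (P : Sylow p G)
    {N T : Subgroup G} (hN : IsMinNormal N) (hc : ¬ IsMulCommutative N) (hT : Cp N T)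
    (hnorm : ∀ t ∈ (P : Subgroup G), t ∈ normalizer (T : Set G) → t ∈ N)
    (hidx : (commutator (P : Subgroup G)).relIndex (N.subgroupOf P) ≤ p) :
    Nat.card ↥((P : Subgroup G) ⊓ T) ≤ p := by
  haveI := hN.normal
  let H : Subgroup (P : Subgroup G) := N.subgroupOf P
  let ι : H →* N := ((P : Subgroup G).subtype.comp H.subtype).codRestrict N fun h => h.2
  let β : H →* MulAut T := (gam hT).comp ι
  let ϕ : H →* Abelianization β.range := Abelianization.of.comp β.rangeRestrict
  let κ : ↥((P : Subgroup G) ⊓ T) →* H :=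
    (inclusion inf_le_left).codRestrict H fun u => hT.le u.2.2
  let δ : ↥((P : Subgroup G) ⊓ T) →* β.range := β.rangeRestrict.comp κ
  have hB : IsPGroup p β.range :=
    (P.isPGroup'.to_subgroup H).of_surjective _ β.rangeRestrict_surjective
  have hδ : Function.Injective δ := by
    rw [injective_iff_map_eq_one]
    intro u hu
    have h1 : gam hT (ι (κ u)) = 1 := congrArg Subtype.val hu
    exact Subtype.ext (hT.eq_one hN hc u.2.2 ((gam_eq_one hT).1 h1))
  have hle : Nat.card β.range ≤ Nat.card ↥((P : Subgroup G) ⊓ T) := by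
    have h1 : Nat.card β.range ∣ Nat.card T :=
      card_dvd_of_gam hN hT _ (by rintro _ ⟨h, rfl⟩; exact ⟨_, rfl⟩)
    obtain ⟨k, hk⟩ := IsPGroup.iff_card.1 hB
    rw [← GT.card_mul_relIndex (inf_le_right : (P : Subgroup G) ⊓ T ≤ T), hk] at h1
    rw [hk]
    refine Nat.le_of_dvd Nat.card_pos (Nat.Coprime.dvd_of_dvd_mul_right ?_ h1)
    exact Nat.Coprime.pow_left _ ((Nat.Prime.coprime_iff_not_dvd hp.out).2
      (not_dvd_relIndex_sylow_inf_of_isSubnormal (isSubnormal_cp hN hT) P))
  have hδs : Function.Surjective δ :=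
    ((Nat.bijective_iff_injective_and_card δ).2
      ⟨hδ, le_antisymm (Nat.card_le_card_of_injective δ hδ) hle⟩).2
  let τ : H →* Abelianization β.range := (MonoidHom.transfer ϕ).comp H.subtype
  have hτ : ∀ u, τ (κ u) = Abelianization.of (δ u) := by
    intro u
    refine transfer_eq_self ϕ (κ u) fun t ht k hk => ?_
    have h1 : T ≠ cj (t : G)⁻¹ T := fun e => ht (hnorm t t.2 (by
      rw [← inv_mem_iff, ← cj_eq_iff]; exact e.symm))
    have h2 : β ⟨_, hk⟩ = 1 := by
      refine (gam_eq_one hT).2 (hT.le_centralizer (hT.cj _) h1 ?_)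
      rw [mem_cj]
      have : (t : G)⁻¹⁻¹ * ((t : G)⁻¹ * (u : G) ^ k * t) * (t : G)⁻¹ = (u : G) ^ k := by group
      exact this ▸ T.pow_mem u.2.2 k
    have h3 : β.rangeRestrict ⟨_, hk⟩ = 1 := Subtype.ext h2
    change Abelianization.of (β.rangeRestrict _) = 1
    rw [h3, map_one]
  have hτs : Function.Surjective τ := by
    intro a
    obtain ⟨b, rfl⟩ : ∃ b, Abelianization.of b = a := Quotient.exists_rep a
    obtain ⟨u, rfl⟩ := hδs b
    exact ⟨κ u, hτ u⟩
  have h1 : (commutator (P : Subgroup G)).subgroupOf H ≤ τ.ker := fun h hh =>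
    Abelianization.commutator_subset_ker (MonoidHom.transfer ϕ) hh
  have h2 : (commutator β.range).index ≤ p := by
    have h3 : τ.ker.index = (commutator β.range).index := by
      rw [index_ker, MonoidHom.range_eq_top.2 hτs, card_top]; rfl
    rw [← h3]
    exact (index_antitone h1).trans hidx
  exact (Nat.card_le_card_of_injective δ hδ).trans (card_le_of_index_le hB h2)

theorem card_cent_dvd [Finite G] {N T : Subgroup G} (hN : IsMinNormal N)
    (hc : ¬ IsMulCommutative N) (hT : Cp N T) {x : G}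
    (htr : ∀ g : G, ∃ k : ℤ, cj g T = cj (x ^ k) T) :
    Nat.card ↥(centralizer ({x} : Set G) ⊓ N) ∣ Nat.card T := by
  haveI := hN.normal
  let f : ↥(centralizer ({x} : Set G) ⊓ N) →* MulAut T := (gam hT).comp (inclusion inf_le_right)
  have hf : Function.Injective f := by
    rw [injective_iff_map_eq_one]
    intro n hn
    have h1 : (n : G) ∈ centralizer (T : Set G) := (gam_eq_one hT).1 hn
    have h2 : N ≤ centralizer ({(n : G)} : Set G) := by
      refine hT.le_of_forall hN fun g => ?_
      obtain ⟨k, hk⟩ := htr g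
      have h3 : x ^ k ∈ centralizer ({(n : G)} : Set G) := by
        refine zpow_mem ?_ k
        rw [mem_centralizer_singleton_iff]
        exact (mem_centralizer_singleton_iff.1 n.2.1).symm
      rw [hk, cj_le_iff]
      intro t ht
      refine mul_mem (mul_mem h3 ?_) (inv_mem h3)
      rw [mem_centralizer_singleton_iff]
      exact h1 t ht
    rcases hN.le_or_inf_eq_bot (centralizer (N : Set G)) with h3 | h3
    · exact absurd (le_centralizer_iff_isMulCommutative.1 h3) hc
    · have : (n : G) ∈ N ⊓ centralizer (N : Set G) :=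
        ⟨n.2.2, fun y hy => mem_centralizer_singleton_iff.1 (h2 hy)⟩
      rw [h3] at this
      exact Subtype.ext this
  rw [Nat.card_congr (f.ofInjective hf).toEquiv]
  exact card_dvd_of_gam hN hT _ (by rintro _ ⟨h, rfl⟩; exact ⟨_, rfl⟩)

/-- the final count -/
theorem factorization_eq_two [Finite G] {p : ℕ} [hp : Fact p.Prime] (P : Sylow p G)
    {N : Subgroup G} [N.Normal] {x : G} (hx : x ∈ (P : Subgroup G))
    (hN : N.relIndex P = p) (hC : ¬ p ^ 2 ∣ Nat.card ↥(centralizer ({x} : Set G) ⊓ N))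
    (h2 : (⁅(P : Subgroup G), (P : Subgroup G)⁆).relIndex P = p ^ 2) :
    (Nat.card (centralizer ({x} : Set G))).factorization p = 2 := by
  have hpos : Nat.card (centralizer ({x} : Set G)) ≠ 0 := Nat.card_pos.ne'
  apply le_antisymm
  · have h3 : ¬ p ^ 2 ∣ N.index := by
      rw [← relIndex_mul_index (le_sup_right : N ≤ (P : Subgroup G) ⊔ N), relIndex_sup_right, hN,
        pow_two, Nat.mul_dvd_mul_iff_left hp.out.pos]
      exact fun h => P.not_dvd_index (h.trans (index_dvd_of_le le_sup_left))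
    have h4 : ¬ p ^ 2 ∣ N.relIndex (centralizer ({x} : Set G)) :=
      fun h => h3 (h.trans (relIndex_dvd_index_of_normal _ _))
    have h5 := card_inf_mul_relIndex (centralizer ({x} : Set G)) N
    rw [inf_comm] at h5
    have h6 : N.relIndex (centralizer ({x} : Set G)) ≠ 0 := fun e => h4 (by simp [e])
    rw [← h5, Nat.factorization_mul Nat.card_pos.ne' h6, Finsupp.add_apply]
    rw [hp.out.pow_dvd_iff_le_factorization h6] at h4
    rw [hp.out.pow_dvd_iff_le_factorization Nat.card_pos.ne'] at hC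
    omega
  · rw [← hp.out.pow_dvd_iff_le_factorization hpos]
    have h3 := relIndex_comm_le hx
    obtain ⟨k, hk⟩ := IsPGroup.iff_card.1
      (P.isPGroup'.to_le (inf_le_right : centralizer ({x} : Set G) ⊓ P ≤ P))
    rw [h2, hk, Nat.pow_le_pow_iff_right hp.out.one_lt] at h3
    exact (pow_dvd_pow p h3).trans (hk ▸ card_dvd_of_le inf_le_left)

end Cfsg.Agent.PSq
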